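import Cfsg.Agent.Lib.Alperin.Supersoluble
import Mathlib.GroupTheory.FiniteAbelian.Basic

/-!
Finite abelian `p`-groups with pairwise distinct invariants and their `p'`-automorphisms.
-/

set_option autoImplicit false
set_option linter.style.haveILetI false
set_option linter.unusedSectionVars false

open scoped commutatorElement

namespace CfsgLib.Alperin

variable {G : Type*} [CommGroup G] [Finite G] {p : ℕ} [Fact p.Prime]

theorem eq_one_of_fix_omega (hG : IsPGroup p G) {h : MulAut G} (hh : (orderOf h).Coprime p)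
    (hfix : ∀ x : G, x ^ p = 1 → h x = x) : h = 1 := by
  have key : ∀ (n : ℕ) (x : G), x ^ p ^ n = 1 → h x = x := by
    intro n
    induction n with
    | zero => intro x hx; rw [pow_zero, pow_one] at hx; rw [hx, map_one]
    | succ n ih =>
      intro x hx
      refine fix_of_fix_displacement hG hh (hfix _ ?_)
      have h1 := ih (x ^ p) (by rw [← pow_mul, ← pow_succ']; exact hx)
      rw [mul_pow, ← map_pow, h1, inv_pow, inv_mul_cancel]
  exact MulEquiv.ext fun x => (hG x).elim fun n hn => key n x hn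

/-- The elements of order dividing `p`. -/
def socleSub (G : Type*) [CommGroup G] (p : ℕ) : Subgroup G :=
  (powMonoidHom p : G →* G).ker

theorem mem_socleSub {x : G} : x ∈ socleSub G p ↔ x ^ p = 1 := Iff.rfl

/-- The elements of order dividing `p` that are `p ^ b`-th powers. -/
def socleTerm (G : Type*) [CommGroup G] (p b : ℕ) : Subgroup (socleSub G p) :=
  ((powMonoidHom (p ^ b) : G →* G).range).subgroupOf (socleSub G p)

theorem mem_socleTerm {b : ℕ} {x : socleSub G p} :
    x ∈ socleTerm G p b ↔ ∃ w : G, w ^ p ^ b = x := Iff.rfl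

theorem socleTerm_antitone {b b' : ℕ} (h : b ≤ b') : socleTerm G p b' ≤ socleTerm G p b := by
  intro x hx
  obtain ⟨w, hw⟩ := mem_socleTerm.mp hx
  obtain ⟨c, rfl⟩ := Nat.exists_eq_add_of_le h
  exact mem_socleTerm.mpr ⟨w ^ p ^ c, by rw [← pow_mul, ← pow_add, add_comm, hw]⟩

theorem exists_mul_of_smul_eq_zero {k : ℕ} (z : ZMod (p ^ k)) (hz : p • z = 0) :
    ∃ m : ℕ, z = ((m * p ^ (k - 1) : ℕ) : ZMod (p ^ k)) := by
  have hp : p.Prime := Fact.out
  haveI : NeZero (p ^ k) := ⟨(pow_pos hp.pos k).ne'⟩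
  have h : p ^ k ∣ p * z.val := by
    rw [← ZMod.natCast_eq_zero_iff, Nat.cast_mul, ZMod.natCast_zmod_val, ← nsmul_eq_mul, hz]
  have h2 : p ^ (k - 1) ∣ z.val := by
    rcases k with _ | k
    · simp
    · rw [Nat.add_sub_cancel]
      exact Nat.dvd_of_mul_dvd_mul_left hp.pos ((pow_succ' p k).symm.dvd.trans h)
  obtain ⟨m, hm⟩ := h2
  exact ⟨m, by rw [mul_comm, ← hm, ZMod.natCast_zmod_val]⟩

/-- If the cyclic factors have pairwise distinct orders, the socle series has cyclic steps. -/
theorem exists_step {ι : Type} [Fintype ι] (k : ι → ℕ) (hk : Function.Injective k)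
    (e : G ≃* ((i : ι) → Multiplicative (ZMod (p ^ k i)))) (b : ℕ) :
    ∃ y₀ ∈ socleTerm G p b, ∀ y ∈ socleTerm G p b,
      ∃ a : ℤ, (y₀ ^ a)⁻¹ * y ∈ socleTerm G p (b + 1) := by
  classical
  have hp : p.Prime := Fact.out
  have key : ∀ (y : socleSub G p), y ∈ socleTerm G p b → ∀ l, k l ≠ b + 1 →
      ∃ u : ZMod (p ^ k l), (e (y : G) l).toAdd = (p ^ (b + 1)) • u := by
    intro y hy l hl
    obtain ⟨w, hw⟩ := mem_socleTerm.mp hy
    by_cases hle : k l ≤ b
    · refine ⟨0, ?_⟩
      rw [← hw, map_pow, Pi.pow_apply, toAdd_pow, nsmul_zero, nsmul_eq_mul,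
        (ZMod.natCast_eq_zero_iff _ _).mpr (pow_dvd_pow p hle), zero_mul]
    · obtain ⟨m, hm⟩ := exists_mul_of_smul_eq_zero (e (y : G) l).toAdd (by
        rw [← toAdd_pow, ← Pi.pow_apply, ← map_pow, mem_socleSub.mp y.2, map_one]; rfl)
      refine ⟨((m * p ^ (k l - 1 - (b + 1)) : ℕ) : ZMod (p ^ k l)), hm.trans ?_⟩
      rw [nsmul_eq_mul, ← Nat.cast_mul]
      congr 1
      rw [← mul_assoc, mul_comm _ m, mul_assoc, ← pow_add]
      congr 2
      omega
  by_cases hex : ∃ i, k i = b + 1
  · obtain ⟨i, hi⟩ := hex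
    let g : G := e.symm (Pi.mulSingle i (Multiplicative.ofAdd ((p ^ b : ℕ) : ZMod (p ^ k i))))
    have hg : g ^ p = 1 := by
      apply e.injective
      rw [map_pow, map_one, MulEquiv.apply_symm_apply, ← Pi.mulSingle_pow,
        show Multiplicative.ofAdd ((p ^ b : ℕ) : ZMod (p ^ k i)) ^ p = 1 from ?_, Pi.mulSingle_one]
      rw [← ofAdd_nsmul, nsmul_eq_mul, ← Nat.cast_mul, (ZMod.natCast_eq_zero_iff _ _).mpr
        (by rw [hi, pow_succ']), ofAdd_zero]
    have hgb : g ∈ ((powMonoidHom (p ^ b) : G →* G)).range := by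
      refine ⟨e.symm (Pi.mulSingle i (Multiplicative.ofAdd (1 : ZMod (p ^ k i)))), ?_⟩
      show _ ^ (p ^ b) = g
      rw [← map_pow, ← Pi.mulSingle_pow, ← ofAdd_nsmul, nsmul_one]
    refine ⟨⟨g, hg⟩, hgb, fun y hy => ?_⟩
    obtain ⟨m, hm⟩ := exists_mul_of_smul_eq_zero (e (y : G) i).toAdd (by
      rw [← toAdd_pow, ← Pi.pow_apply, ← map_pow, mem_socleSub.mp y.2, map_one]; rfl)
    refine ⟨(m : ℤ), mem_socleTerm.mpr ⟨e.symm fun l => Multiplicative.ofAdd
      (if hl : k l = b + 1 then 0 else (key y hy l hl).choose), ?_⟩⟩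
    rw [zpow_natCast]
    show _ = (g ^ m)⁻¹ * (y : G)
    refine e.injective (funext fun l => Multiplicative.toAdd.injective ?_)
    rw [map_pow, MulEquiv.apply_symm_apply, Pi.pow_apply, toAdd_pow, toAdd_ofAdd, map_mul, map_inv,
      map_pow, MulEquiv.apply_symm_apply, Pi.mul_apply, Pi.inv_apply, Pi.pow_apply, toAdd_mul,
      toAdd_inv, toAdd_pow]
    by_cases hl : k l = b + 1
    · obtain rfl : l = i := hk (hl.trans hi.symm)
      rw [dif_pos hl, Pi.mulSingle_eq_same, nsmul_zero, toAdd_ofAdd, hm, nsmul_eq_mul,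
        ← Nat.cast_mul, show k l - 1 = b from by omega, neg_add_cancel]
    · have hne : l ≠ i := fun h => hl (h ▸ hi)
      rw [dif_neg hl, Pi.mulSingle_eq_of_ne hne, toAdd_one, nsmul_zero, neg_zero, zero_add]
      exact (key y hy l hl).choose_spec.symm
  · refine ⟨1, one_mem _, fun y hy => ⟨0, ?_⟩⟩
    rw [zpow_zero, inv_one, one_mul]
    refine mem_socleTerm.mpr ⟨e.symm fun l => Multiplicative.ofAdd
      (key y hy l fun h => hex ⟨l, h⟩).choose, ?_⟩
    refine e.injective (funext fun l => Multiplicative.toAdd.injective ?_)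
    rw [map_pow, MulEquiv.apply_symm_apply, Pi.pow_apply, toAdd_pow, toAdd_ofAdd]
    exact (key y hy l fun h => hex ⟨l, h⟩).choose_spec.symm

/-- A `p'`-group of automorphisms of an abelian `p`-group with pairwise distinct invariants is
abelian of exponent dividing `p - 1`. -/
theorem pPrimeAut_of_distinct (hG : IsPGroup p G) {ι : Type} [Fintype ι] (k : ι → ℕ)
    (hk : Function.Injective k) (e : G ≃* ((i : ι) → Multiplicative (ZMod (p ^ k i))))
    (H : Subgroup (MulAut G)) (hH : (Nat.card H).Coprime p) :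
    IsMulCommutative H ∧ ∀ a ∈ H, a ^ (p - 1) = 1 := by
  classical
  have hp : p.Prime := Fact.out
  obtain ⟨N, hN⟩ := hG.exists_card_eq
  set W := socleSub G p
  let d : Fin (N + 1) → Subgroup W := fun i => socleTerm G p (N - i)
  have hd : CyclicSeries d := by
    refine ⟨?_, ?_, fun i => socleTerm_antitone (by simp only [Fin.val_succ, Fin.val_castSucc]; omega),
      fun i => inferInstance, fun i => ?_⟩
    · refine (Subgroup.eq_bot_iff_forall _).mpr fun x hx => Subtype.ext ?_
      obtain ⟨w, hw⟩ := mem_socleTerm.mp hx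
      simp only [Fin.val_zero, Nat.sub_zero, ← hN, pow_card_eq_one'] at hw
      exact hw.symm
    · refine eq_top_iff.mpr fun x _ => mem_socleTerm.mpr ⟨x, ?_⟩
      simp
    · obtain ⟨y₀, hy₀, hgen⟩ := exists_step k hk e (N - i.succ)
      refine ⟨y₀, hy₀, fun y hy => ?_⟩
      obtain ⟨a, ha⟩ := hgen y hy
      refine ⟨a, ?_⟩
      show _ ∈ socleTerm G p (N - (i.castSucc : ℕ))
      rw [show N - (i.castSucc : ℕ) = N - (i.succ : ℕ) + 1 by
        simp only [Fin.val_succ, Fin.val_castSucc]; omega]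
      exact ha
  let res : MulAut G → (W ≃* W) := fun h =>
    { toFun := fun x => ⟨h x, by rw [mem_socleSub, ← map_pow, mem_socleSub.mp x.2, map_one]⟩
      invFun := fun x => ⟨h.symm x, by rw [mem_socleSub, ← map_pow, mem_socleSub.mp x.2, map_one]⟩
      left_inv := fun x => Subtype.ext (h.symm_apply_apply x)
      right_inv := fun x => Subtype.ext (h.apply_symm_apply x)
      map_mul' := fun x y => Subtype.ext (map_mul h _ _) }
  let r : MulAut G →* MulAut W := MonoidHom.mk' res fun a b => MulEquiv.ext fun x => rfl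
  have hpres : ∀ h : MulAut G, Preserves d (r h) := fun h i x hx => by
    obtain ⟨w, hw⟩ := mem_socleTerm.mp hx
    exact mem_socleTerm.mpr ⟨h w, by rw [← map_pow, hw]; rfl⟩
  have hWp : IsPGroup p W := hG.to_subgroup W
  have hker : ∀ h ∈ H, r h = 1 → h = 1 := by
    intro h hh h1
    refine eq_one_of_fix_omega hG
      (hH.coprime_dvd_left ((H.orderOf_mk h hh).symm ▸ orderOf_dvd_natCard (⟨h, hh⟩ : H))) ?_
    intro x hx
    exact congrArg Subtype.val (congrArg (fun f : MulAut W => f ⟨x, hx⟩) h1)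
  have hcop : ∀ h ∈ H, (orderOf (r h)).Coprime p := fun h hh =>
    (hH.coprime_dvd_left ((H.orderOf_mk h hh).symm ▸ orderOf_dvd_natCard (⟨h, hh⟩ : H))).coprime_dvd_left
      (orderOf_map_dvd r h)
  refine ⟨⟨⟨fun a b => Subtype.ext ?_⟩⟩, fun a ha => hker _ (pow_mem ha _) ?_⟩
  · show (a : MulAut G) * b = b * a
    refine commutatorElement_eq_one_iff_mul_comm.mp (hker _ ?_ ?_)
    · exact (⁅a, b⁆ : H).2
    · refine eq_one_of_factorStab hWp hd.zero hd.last (hcop _ (⁅a, b⁆ : H).2) ?_
      show r ⁅(a : MulAut G), (b : MulAut G)⁆ ∈ _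
      rw [map_commutatorElement]
      exact commutatorElement_mem_factorStab hd (hpres _) (hpres _)
  · rw [map_pow]
    exact pow_sub_one_eq_one hWp hd (hpres a) (hcop a ha)

/-- Automorphisms of `C × C` forming a `p'`-group not abelian of exponent dividing `p - 1`. -/
theorem exists_bad_pair {C : Type*} [CommGroup C] [Finite C] {c : C} (hc : c ≠ 1) {n : ℕ}
    (hcn : c ^ p ^ n = 1) :
    ∃ H : Subgroup (MulAut (C × C)), (Nat.card H).Coprime p ∧
      ¬ (IsMulCommutative H ∧ ∀ a ∈ H, a ^ (p - 1) = 1) := by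
  classical
  have hp : p.Prime := Fact.out
  by_cases hp2 : p = 2
  · let r : MulAut (C × C) :=
      { toFun := fun x => (x.2⁻¹, x.1 * x.2⁻¹)
        invFun := fun x => (x.2 * x.1⁻¹, x.1⁻¹)
        left_inv := fun x => by simp
        right_inv := fun x => by simp
        map_mul' := fun x y => by simp [mul_comm, mul_left_comm, mul_assoc] }
    have hr1 : r ≠ 1 := fun h => hc (by
      have := congrArg (fun g : MulAut (C × C) => (g (c, 1)).1) h
      simpa [r] using this.symm)
    have hr3 : r ^ 3 = 1 := MulEquiv.ext fun x => by simp [r, pow_succ, mul_comm, mul_left_comm]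
    refine ⟨Subgroup.zpowers r, ?_, fun h => hr1 ?_⟩
    · rw [Nat.card_zpowers, hp2]
      exact Nat.Coprime.coprime_dvd_left (orderOf_dvd_of_pow_eq_one hr3) (by norm_num)
    · have := h.2 r (Subgroup.mem_zpowers r)
      rwa [hp2, pow_one] at this
  · let s : MulAut (C × C) := MulEquiv.prodComm
    let t : MulAut (C × C) :=
      { toFun := fun x => (x.1⁻¹, x.2)
        invFun := fun x => (x.1⁻¹, x.2)
        left_inv := fun x => by simp
        right_inv := fun x => by simp
        map_mul' := fun x y => by simp [mul_comm] }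
    have hss : s * s = 1 := MulEquiv.ext fun x => rfl
    have hsi : s⁻¹ = s := inv_eq_of_mul_eq_one_right hss
    have htt : t * t = 1 := MulEquiv.ext fun x => by simp [t]
    have hti : t⁻¹ = t := inv_eq_of_mul_eq_one_right htt
    have h4 : (s * t) ^ 4 = 1 := MulEquiv.ext fun x => by simp [s, t, pow_succ]
    refine ⟨Subgroup.zpowers (s * t) ⊔ Subgroup.zpowers s, ?_, fun h => ?_⟩
    · have hs2 : IsPGroup 2 (Subgroup.zpowers s) := by
        intro x
        refine ⟨1, Subtype.ext ?_⟩
        obtain ⟨j, hj⟩ := Subgroup.mem_zpowers_iff.mp x.2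
        show (x : MulAut (C × C)) ^ (2 ^ 1) = 1
        rw [← hj, pow_one, ← zpow_natCast, ← zpow_mul, mul_comm, zpow_mul, zpow_natCast, sq, hss,
          one_zpow]
      have hst : IsPGroup 2 (Subgroup.zpowers (s * t)) := by
        intro x
        refine ⟨2, Subtype.ext ?_⟩
        obtain ⟨j, hj⟩ := Subgroup.mem_zpowers_iff.mp x.2
        show (x : MulAut (C × C)) ^ (2 ^ 2) = 1
        rw [← hj, ← zpow_natCast, ← zpow_mul, mul_comm, zpow_mul, zpow_natCast,
          show (2 ^ 2) = 4 from rfl, h4, one_zpow]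
      have hnorm : Subgroup.zpowers s ≤
          Subgroup.normalizer (Subgroup.zpowers (s * t) : Set (MulAut (C × C))) := by
        rw [Subgroup.zpowers_le]
        refine Subgroup.mem_normalizer_iff_map_conj_eq.mpr ?_
        rw [MonoidHom.map_zpowers, ← Subgroup.zpowers_inv (g := s * t)]
        refine congrArg Subgroup.zpowers ?_
        show s * (s * t) * s⁻¹ = (s * t)⁻¹
        rw [mul_inv_rev, hti, hsi, ← mul_assoc s s, hss, one_mul]
      haveI : Finite (MulAut (C × C)) :=
        Finite.of_injective (fun a : MulAut (C × C) => (a : C × C → C × C))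
          fun _ _ h => MulEquiv.ext (congrFun h)
      obtain ⟨j, hj⟩ := (IsPGroup.to_sup_of_normal_left' hst hs2 hnorm).exists_card_eq
      rw [hj]
      exact Nat.Coprime.pow_left j ((Nat.coprime_primes Nat.prime_two hp).mpr (Ne.symm hp2))
    · have hst := h.1.is_comm.comm
        (⟨s * t, Subgroup.mem_sup_left (Subgroup.mem_zpowers _)⟩ :
          (Subgroup.zpowers (s * t) ⊔ Subgroup.zpowers s : Subgroup (MulAut (C × C))))
        ⟨s, Subgroup.mem_sup_right (Subgroup.mem_zpowers _)⟩
      have h1 := congrArg (fun g : (Subgroup.zpowers (s * t) ⊔ Subgroup.zpowers s :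
          Subgroup (MulAut (C × C))) => ((g : MulAut (C × C)) (c, 1))) hst
      have h2 : c = c⁻¹ := by
        simp [s, t] at h1
        first | exact h1 | exact h1.symm
      have h3 : c ^ 2 = 1 := by rw [sq]; exact eq_inv_iff_mul_eq_one.mp h2
      have h5 : orderOf c ∣ p ^ n := orderOf_dvd_of_pow_eq_one hcn
      refine hc (orderOf_eq_one_iff.mp (Nat.eq_one_of_dvd_coprimes ?_ (orderOf_dvd_of_pow_eq_one h3) h5))
      exact Nat.Coprime.pow_right n ((Nat.coprime_primes Nat.prime_two hp).mpr (Ne.symm hp2))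

/-- Two equal invariants give a `p'`-group of automorphisms that is not abelian of exponent
dividing `p - 1`. -/
theorem exists_bad_of_repeated {A : Type*} [Group A] {n : ℕ} (hn : 0 < n) {K : Type*} [CommGroup K]
    (f : A ≃* (Multiplicative (ZMod (p ^ n)) × Multiplicative (ZMod (p ^ n))) × K) :
    ∃ H : Subgroup (MulAut A), (Nat.card H).Coprime p ∧
      ¬ (IsMulCommutative H ∧ ∀ a ∈ H, a ^ (p - 1) = 1) := by
  classical
  have hp : p.Prime := Fact.out
  haveI : Fact (1 < p ^ n) := ⟨Nat.one_lt_pow hn.ne' hp.one_lt⟩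
  haveI : NeZero (p ^ n) := ⟨(pow_pos hp.pos n).ne'⟩
  obtain ⟨H, hH, hbad⟩ := exists_bad_pair (p := p) (n := n)
    (c := Multiplicative.ofAdd (1 : ZMod (p ^ n)))
    (fun h => one_ne_zero (α := ZMod (p ^ n)) (by simpa using h))
    (by rw [← ofAdd_nsmul, nsmul_eq_mul, ZMod.natCast_self, zero_mul, ofAdd_zero])
  let ext : MulAut (Multiplicative (ZMod (p ^ n)) × Multiplicative (ZMod (p ^ n))) →* MulAut A :=
    MonoidHom.mk' (fun σ => (f.trans (σ.prodCongr (MulEquiv.refl K))).trans f.symm)
      (fun σ τ => MulEquiv.ext fun x => by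
        simp only [MulAut.mul_apply, MulEquiv.trans_apply, MulEquiv.apply_symm_apply]
        rfl)
  have hext : Function.Injective ext := fun σ τ h => MulEquiv.ext fun x => by
    have h1 := congrArg (fun g : MulAut A => (f (g (f.symm (x, 1)))).1) h
    simp only [ext, MonoidHom.mk'_apply, MulEquiv.trans_apply, MulEquiv.apply_symm_apply] at h1
    exact h1
  refine ⟨H.map ext, by rwa [Subgroup.card_map_of_injective hext], fun h => hbad ⟨?_, ?_⟩⟩
  · refine ⟨⟨fun a b => Subtype.ext (hext ?_)⟩⟩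
    show ext ((a : MulAut (Multiplicative (ZMod (p ^ n)) × Multiplicative (ZMod (p ^ n)))) * b) =
      ext (b * a)
    rw [map_mul, map_mul]
    exact congrArg Subtype.val (h.1.is_comm.comm (⟨_, a, a.2, rfl⟩ : H.map ext) ⟨_, b, b.2, rfl⟩)
  · intro a ha
    exact hext (by rw [map_pow, map_one]; exact h.2 _ ⟨a, ha, rfl⟩)

end CfsgLib.Alperin
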