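import Cfsg.Agent.Lib.FusionExamples.ControlFixed
import Cfsg.Agent.Lib.Alperin.ClassT

/-!
The reduction `J(Q) C_Q(J(Q))` of a subgroup: characteristic, self-centralizing, and detecting
`p'`-automorphisms through `J(Q)` for odd `p`.
-/

set_option autoImplicit false
set_option linter.style.haveILetI false
set_option linter.unusedSectionVars false

namespace CfsgLib.Alperin.ReducedKey

open Cfsg Cfsg.FusionSystem CfsgLib.Alperin CfsgLib.ThompsonJ CfsgLib.FusionExamples.ControlFixed

variable {Ω : Type*} [Group Ω] {p : ℕ}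

/-- `J(H) C_H(J(H))` as a subgroup of `H`. -/
def redIn (p : ℕ) (H : Type*) [Group H] : Subgroup H :=
  thompsonSubgroup p H ⊔ Subgroup.centralizer (thompsonSubgroup p H : Set H)

theorem red_eq_map (Q : Subgroup Ω) : red p Q = (redIn p ↥Q).map Q.subtype := by
  have h := red_range (p := p) Q.subtype Q.subtype_injective
  rwa [Subgroup.range_subtype] at h

theorem subgroupOf_red (Q : Subgroup Ω) : (red p Q).subgroupOf Q = redIn p ↥Q := by
  rw [red_eq_map, Subgroup.subgroupOf, Subgroup.comap_map_eq_self_of_injective Q.subtype_injective]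

theorem red_map {Q : Subgroup Ω} (φ : Q →* Ω) (hφ : Function.Injective φ) :
    red p φ.range = ((red p Q).subgroupOf Q).map φ := by
  rw [subgroupOf_red, red_range φ hφ]
  rfl

theorem thompson_map {Q : Subgroup Ω} (φ : Q →* Ω) (hφ : Function.Injective φ) :
    thompsonSubgroupOf p φ.range = ((thompsonSubgroupOf p Q).subgroupOf Q).map φ := by
  have h := thompson_map_injective (p := p) Q.subtype Q.subtype_injective
  rw [Subgroup.range_subtype] at h
  rw [thompson_map_injective φ hφ, h, Subgroup.subgroupOf,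
    Subgroup.comap_map_eq_self_of_injective Q.subtype_injective]

theorem aut_mem_red {Q : Subgroup Ω} (a : MulAut Q) {x : Q} (hx : (x : Ω) ∈ red p Q) :
    ((a x : Q) : Ω) ∈ red p Q := by
  have h := red_map (p := p) (Q.subtype.comp a.toMonoidHom)
    (Q.subtype_injective.comp a.injective)
  rw [CfsgLib.FusionSub.range_subtype_comp_aut] at h
  exact h.ge ⟨x, hx, rfl⟩

theorem mem_normalizer_red {Q : Subgroup Ω} {g : Ω} (hg : g ∈ Subgroup.normalizer (Q : Set Ω)) :
    g ∈ Subgroup.normalizer (red p Q : Set Ω) := by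
  have key : ∀ g : Ω, g ∈ Subgroup.normalizer (Q : Set Ω) → ∀ x ∈ red p Q,
      g * x * g⁻¹ ∈ red p Q := fun g hg x hx =>
    aut_mem_red (conjAut Q g hg) (x := ⟨x, red_le Q hx⟩) hx
  refine Subgroup.mem_normalizer_iff.mpr fun x => ⟨key g hg x, fun hx => ?_⟩
  have h := key g⁻¹ (Subgroup.inv_mem _ hg) _ hx
  simpa [mul_assoc] using h

theorem mem_red_of_centralizes {Q : Subgroup Ω} {x : Ω} (hx : x ∈ Q)
    (h : ∀ j ∈ thompsonSubgroupOf p Q, j * x = x * j) : x ∈ red p Q :=
  Subgroup.mem_sup_right ⟨hx, h⟩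

theorem centralizerIn_red_le (Q : Subgroup Ω) : centralizerIn Q (red p Q) ≤ red p Q :=
  fun _ hx => mem_red_of_centralizes hx.1 fun j hj => hx.2 j (Subgroup.mem_sup_left hj)

variable [Fact p.Prime]

/-- An automorphism of order prime to `p` fixing the Thompson subgroup fixes the reduction. -/
theorem fixes_redIn {H : Type*} [Group H] [Finite H] (hH : IsPGroup p H) (hp : p ≠ 2)
    {b : MulAut H} {m : ℕ} (hbm : b ^ m = 1) (hm : m.Coprime p)
    (hfix : ∀ j ∈ thompsonSubgroup p H, b j = j) : ∀ x ∈ redIn p H, b x = x := by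
  set J := thompsonSubgroup p H with hJ
  set C := Subgroup.centralizer (J : Set H) with hC
  have hinv : ∀ (a : MulAut H), (∀ j ∈ J, a j = j) → ∀ x ∈ C, a x ∈ C := by
    intro a ha x hx j hj
    show j * a x = a x * j
    calc j * a x = a (j * x) := by rw [map_mul, ha j hj]
      _ = a (x * j) := by rw [hx j hj]
      _ = a x * j := by rw [map_mul, ha j hj]
  have hbs : ∀ j ∈ J, b.symm j = j := fun j hj => by rw [MulEquiv.symm_apply_eq, hfix j hj]
  let b' : MulAut C :=
    { toFun := fun x => ⟨b x, hinv b hfix x x.2⟩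
      invFun := fun x => ⟨b.symm x, hinv b.symm hbs x x.2⟩
      left_inv := fun x => Subtype.ext (b.symm_apply_apply x)
      right_inv := fun x => Subtype.ext (b.apply_symm_apply x)
      map_mul' := fun x y => Subtype.ext (map_mul b (x : H) y) }
  have hpow : ∀ (k : ℕ) (x : C), (((b' ^ k) x : C) : H) = (b ^ k) x := by
    intro k
    induction k with
    | zero => intro x; rfl
    | succ k ih =>
      intro x
      rw [pow_succ, pow_succ, MulAut.mul_apply, MulAut.mul_apply, ih]
      rfl
  obtain ⟨A, hA⟩ := exists_isMaxEA p (⊤ : Subgroup H)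
  have hb'1 : b' = 1 := by
    refine CfsgLib.FusionExamples.eq_one_of_fixes_small (hH.to_subgroup C) b' m ?_ hm
      fun x hx => Subtype.ext ?_
    · exact MulEquiv.ext fun x => Subtype.ext (by rw [hpow, hbm]; rfl)
    · rcases hx with hx | ⟨h, -⟩
      · refine hfix _ (le_sSup (a := A) (mem_max_iff.mpr hA) ?_)
        exact hA.mem_of_centralizes (Subgroup.mem_top _) (congrArg Subtype.val hx)
          fun a ha => x.2 a (le_sSup (a := A) (mem_max_iff.mpr hA) ha)
      · exact absurd h hp
  intro x hx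
  exact (sup_le (a := J) (b := C) (c := MonoidHom.eqLocus b.toMonoidHom (MonoidHom.id H)) hfix
    (fun y hy => congrArg (fun f : MulAut C => ((f ⟨y, hy⟩ : C) : H)) hb'1)) hx

/-- An automorphism fixing the Thompson subgroup is a `p`-element. -/
theorem exists_pow_eq_one_of_fixes {S : Subgroup Ω} [Finite S] (hS : IsPGroup p S) (hp : p ≠ 2)
    {Q : Subgroup Ω} (hQ : Q ≤ S) (a : MulAut Q)
    (hfix : ∀ x : Q, (x : Ω) ∈ thompsonSubgroupOf p Q → a x = x) : ∃ k, a ^ p ^ k = 1 := by
  haveI := finite_of_le hQ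
  haveI := finite_mulAut (P := Q)
  obtain ⟨k, m, hkm, hm⟩ := CfsgLib.FusionExamples.exists_coprime_power (p := p) a
  have hQp := isPGroup_of_le hS hQ
  set b := a ^ p ^ k
  have hJ : ∀ j ∈ thompsonSubgroup p ↥Q, b j = j := by
    intro j hj
    have hjQ : (j : Ω) ∈ thompsonSubgroupOf p Q := by
      have h := thompson_map_injective (p := p) Q.subtype Q.subtype_injective
      rw [Subgroup.range_subtype] at h
      exact h.ge ⟨j, hj, rfl⟩
    have : ∀ n : ℕ, (a ^ n) j = j := by
      intro n
      induction n with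
      | zero => simp
      | succ n ih => rw [pow_succ', MulAut.mul_apply, ih, hfix j hjQ]
    exact this _
  have hred := fixes_redIn hQp hp hkm hm hJ
  obtain ⟨l, hl⟩ := exists_pow_eq_one_of_fix hS (P := red p Q) hQ (red_le Q)
    (fun g hg => mem_normalizer_red (Subgroup.le_normalizer hg)) (centralizerIn_red_le Q) b
    fun x hx => hred x ((subgroupOf_red (p := p) Q).le hx)
  exact ⟨k + l, by rw [pow_add, pow_mul]; exact hl⟩

variable {S : Subgroup Ω} [Finite S]

/-- An element outside centralizing the Thompson subgroup increases the key. -/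
theorem key_lt_of_centralizes {Q X : Subgroup Ω} (hQX : Q ≤ X) (hX : X ≤ S) {u : Ω} (hu : u ∈ X)
    (huJ : ∀ j ∈ thompsonSubgroupOf p Q, j * u = u * j) (huQ : u ∉ Q) :
    key p S Q < key p S X := by
  refine lt_of_le_of_ne (key_mono hQX hX).1 fun heq => huQ ?_
  obtain ⟨hJX, hRX, -⟩ := (key_mono hQX hX).2 heq
  exact red_le Q (hRX.ge (mem_red_of_centralizes hu fun j hj => huJ j (hJX.ge hj)))

/-- A subgroup of largest order outside increases the key. -/
theorem key_lt_of_maxEA {Q X N U : Subgroup Ω} (hQX : Q ≤ X) (hXN : X ≤ N) (hN : N ≤ S)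
    (hU : IsMaxEA p N U) (hUX : U ≤ X) (hUQ : ¬ U ≤ Q) : key p S Q < key p S X := by
  refine lt_of_le_of_ne (key_mono hQX (hXN.trans hN)).1 fun heq => hUQ ?_
  obtain ⟨hJX, -, -⟩ := (key_mono hQX (hXN.trans hN)).2 heq
  refine (le_thompsonSubgroupOf (P := X) ⟨hUX, hU.elem,
    fun D hD hDe => hU.card_le D (hD.trans hXN) hDe⟩).trans ?_
  rw [← hJX]
  exact thompsonSubgroupOf_le p Q

/-- Below the top, some largest elementary abelian subgroup of the normalizer of a reduced
subgroup lies outside it, unless an element outside centralizes its Thompson subgroup. -/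
theorem exists_maxEA_not_le (hS : IsPGroup p S) {Q : Subgroup Ω} (hQ : Q ≤ S) (hred : red p Q = Q)
    (hlt : key p S Q < key p S S) (hC : centralizerIn S (thompsonSubgroupOf p Q) ≤ Q) :
    ∃ A, IsMaxEA p (normalizerIn S Q) A ∧ ¬ A ≤ Q := by
  obtain ⟨A₀, hA₀⟩ := exists_max (p := p) (normalizerIn_le S Q)
  set T := normalizerIn S Q with hT
  have hQT : Q ≤ T := le_normalizerIn hQ
  by_contra! hcon
  refine (key_lt_normalizerIn hS hQ hred hlt).not_ge ?_
  have hJT : thompsonSubgroupOf p T ≤ Q := thompsonSubgroupOf_le_iff.mpr hcon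
  have hmax : ∀ B, IsMaxEA p Q B ↔ IsMaxEA p T B := fun B =>
    ⟨fun h => ⟨h.le.trans hQT, h.elem, fun D hD hDe =>
      (hA₀.card_le D hD hDe).trans (h.card_le A₀ (hcon A₀ hA₀) hA₀.elem)⟩,
    fun h => ⟨hcon B h, h.elem, fun D hD hDe => h.card_le D (hD.trans hQT) hDe⟩⟩
  have hJeq : thompsonSubgroupOf p Q = thompsonSubgroupOf p T := by
    simp only [thompsonSubgroupOf_eq_iSup, hmax]
  have he : ecard p Q = ecard p T := by
    rw [ecard_eq ((hmax A₀).mpr hA₀), ecard_eq hA₀]
  have hR' : red p T ≤ Q := by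
    refine sup_le hJT ?_
    rw [← hJeq]
    exact (inf_le_inf_right _ (normalizerIn_le S Q)).trans hC
  haveI := finite_of_le hQ
  show key p S T ≤ key p S Q
  unfold key
  rw [he, ← hJeq]
  have := Subgroup.card_le_of_le hR'
  rw [hred]
  omega

end CfsgLib.Alperin.ReducedKey
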