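import Cfsg.Agent.Lib.Alperin.LiftGroup
import Cfsg.Agent.Lib.Alperin.ReducedKey

/-!
The three steps showing that automorphisms of a fully normalized subgroup in a normal subsystem
over `T` have lifts fixing an element `c ∈ C_S(T)`: centralized Thompson subgroup, quadratic
offender, and descent from the reduction.
-/

set_option autoImplicit false
set_option linter.style.haveILetI false
set_option linter.unusedSectionVars false

namespace CfsgLib.Alperin.NormalLift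

open Cfsg Cfsg.FusionSystem CfsgLib.Alperin CfsgLib.FusionSub CfsgLib.FusionBasics
open CfsgLib.FusionExamples.ControlFixed

variable {Ω : Type*} [Group Ω] {S T : Subgroup Ω} {F : FusionSystem S} {E : FusionSystem T}
variable {p : ℕ} [Fact p.Prime] [Finite S] [Finite T] {Q : Subgroup Ω} {c : Ω}

/-- An action restricted to an invariant subgroup. -/
def actSub {G A : Type*} [Group G] [Group A] (f : G →* MulAut A) (W : Subgroup A)
    (hW : ∀ g, ∀ x ∈ W, f g x ∈ W) : G →* MulAut W where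
  toFun g :=
    { toFun := fun x => ⟨f g x, hW g x x.2⟩
      invFun := fun x => ⟨f g⁻¹ x, hW g⁻¹ x x.2⟩
      left_inv := fun x => Subtype.ext (by simp)
      right_inv := fun x => Subtype.ext (by simp)
      map_mul' := fun x y => Subtype.ext (map_mul (f g) (x : A) y) }
  map_one' := MulEquiv.ext fun x => Subtype.ext (by simp)
  map_mul' g h := MulEquiv.ext fun x => Subtype.ext (by simp)

theorem map_eq_of_invariant {G A : Type*} [Group G] [Group A] (f : G →* MulAut A) (N : Subgroup A)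
    (hN : ∀ g, ∀ x ∈ N, f g x ∈ N) (g : G) : N.map (f g).toMonoidHom = N := by
  refine le_antisymm ?_ fun y hy => ⟨f g⁻¹ y, hN g⁻¹ y hy, by simp⟩
  rintro _ ⟨x, hx, rfl⟩
  exact hN g x hx

/-- An action on the quotient by an invariant subgroup. -/
def actQuot {G A : Type*} [Group G] [Group A] (f : G →* MulAut A) (N : Subgroup A) [N.Normal]
    (hN : ∀ g, ∀ x ∈ N, f g x ∈ N) : G →* MulAut (A ⧸ N) where
  toFun g := QuotientGroup.congr N N (f g) (map_eq_of_invariant f N hN g)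
  map_one' := MulEquiv.ext fun x => by
    obtain ⟨a, rfl⟩ := QuotientGroup.mk_surjective x
    show QuotientGroup.mk (f 1 a) = _
    simp
  map_mul' g h := MulEquiv.ext fun x => by
    obtain ⟨a, rfl⟩ := QuotientGroup.mk_surjective x
    show QuotientGroup.mk (f (g * h) a) = QuotientGroup.mk (f g (f h a))
    simp

theorem actQuot_mk {G A : Type*} [Group G] [Group A] (f : G →* MulAut A) (N : Subgroup A)
    [N.Normal] (hN : ∀ g, ∀ x ∈ N, f g x ∈ N) (g : G) (a : A) :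
    actQuot f N hN g (QuotientGroup.mk a) = QuotientGroup.mk (f g a) := rfl

/-- An element of `T` whose action is carried by `a` into `Aut_T(Q)` lies in the extender. -/
theorem mem_extender_of_conj_mem (a : MulAut Q) {g : Ω} (hg : g ∈ T)
    (hgN : g ∈ Subgroup.normalizer (Q : Set Ω))
    (hmem : a * conjAut Q g hgN * a⁻¹ ∈ autInducedBy T Q) :
    g ∈ extender T Q (Q.subtype.comp a.toMonoidHom) := by
  obtain ⟨h, hh, hhx⟩ := mem_autInducedBy_iff.mp hmem
  refine mem_extender_iff.mpr ⟨hg, hgN, h, hh, fun w hw => ?_⟩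
  have e : (⟨g * w * g⁻¹, hw⟩ : Q) = conjAut Q g hgN w := Subtype.ext rfl
  show ((a ⟨g * w * g⁻¹, hw⟩ : Q) : Ω) = _
  rw [e]
  refine Eq.trans ?_ (hhx (a w))
  simp

/-- An automorphism extending to a larger subgroup where maps are fixed is fixed. -/
theorem fixY_of_le_extender (hT : IsPGroup p T) (hE : E.IsSaturated p) {Y : Subgroup Ω}
    (hQ : E.IsFullyNormalized Q) {a : MulAut Q} (ha : a ∈ E.autGroup Q) {U : Subgroup Ω}
    (hU : U ≤ extender T Q (Q.subtype.comp a.toMonoidHom))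
    (hbig : ∀ X : Subgroup Ω, Q ≤ X → X ≤ normalizerIn T Q → U ≤ X →
      ∀ ψ ∈ E.Hom X, FixY F Y X ψ) :
    FixY F Y Q (Q.subtype.comp a.toMonoidHom) := by
  have haH := (mem_autGroup_iff E hQ.1).mp ha
  obtain ⟨ψ, hψ, hx⟩ :=
    (receptive_of_fullyNormalized hT hE hQ).2 Q _ haH (range_subtype_comp_aut a)
  exact (hbig _ (le_extender haH) (extender_le_normalizerIn Q _) hU ψ hψ).restrict
    (le_extender haH) fun x => (hx x x.2 _).symm

/-- An element centralizing the Thompson subgroup makes every automorphism extend. -/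
theorem fixY_of_centralizing (hp : p ≠ 2) (hT : IsPGroup p T) (hE : E.IsSaturated p)
    {Y : Subgroup Ω} (hQ : E.IsFullyNormalized Q) {u : Ω} (hu : u ∈ T)
    (huN : u ∈ Subgroup.normalizer (Q : Set Ω))
    (huJ : ∀ j ∈ thompsonSubgroupOf p Q, j * u = u * j)
    (hbig : ∀ X : Subgroup Ω, Q ≤ X → X ≤ normalizerIn T Q → u ∈ X →
      ∀ ψ ∈ E.Hom X, FixY F Y X ψ) :
    ∀ a ∈ E.autGroup Q, FixY F Y Q (Q.subtype.comp a.toMonoidHom) := by
  intro a ha
  haveI := finite_autGroup E hQ.1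
  set G := E.autGroup Q
  obtain ⟨R, hR⟩ := (centralized_automized_of_fullyNormalized hT hE hQ).2.2
  let K : Subgroup G :=
    { carrier := {b | ∀ j : Q, (j : Ω) ∈ thompsonSubgroupOf p Q → (b : MulAut Q) j = j}
      one_mem' := fun _ _ => rfl
      mul_mem' := fun {b d} hb hd j hj => by
        show (b : MulAut Q) ((d : MulAut Q) j) = j
        rw [hd j hj, hb j hj]
      inv_mem' := fun {b} hb j hj => by
        show (b : MulAut Q).symm j = j
        rw [MulEquiv.symm_apply_eq, hb j hj] }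
  have hJinv : ∀ (g : MulAut Q) (j : Q), (j : Ω) ∈ thompsonSubgroupOf p Q →
      ((g j : Q) : Ω) ∈ thompsonSubgroupOf p Q := by
    intro g j hj
    have h := ReducedKey.thompson_map (p := p) (Q.subtype.comp g.toMonoidHom)
      (Q.subtype_injective.comp g.injective)
    rw [range_subtype_comp_aut] at h
    exact h.ge ⟨j, hj, rfl⟩
  haveI hKn : K.Normal := ⟨fun b hb g j hj => by
    show (g : MulAut Q) ((b : MulAut Q) ((g : MulAut Q).symm j)) = j
    rw [hb _ (hJinv _ j hj), MulEquiv.apply_symm_apply]⟩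
  have hKp : IsPGroup p K := by
    rintro ⟨b, hb⟩
    obtain ⟨k, hk⟩ := ReducedKey.exists_pow_eq_one_of_fixes hT hp hQ.1 (b : MulAut Q) hb
    exact ⟨k, Subtype.ext (Subtype.ext hk)⟩
  have hy : conjAut Q u huN ∈ G := autInducedBy_le_autGroup E hQ.1 (conjAut_mem hu huN)
  have hyK : (⟨conjAut Q u huN, hy⟩ : G) ∈ K := fun j hj => Subtype.ext (by
    show u * (j : Ω) * u⁻¹ = j
    rw [← huJ _ hj, mul_inv_cancel_right])
  have h := le_sylow_of_normal hKp R (hKn.conj_mem _ hyK ⟨a, ha⟩)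
  rw [hR] at h
  have hux := mem_extender_of_conj_mem a hu huN (Subgroup.mem_subgroupOf.mp h)
  exact fixY_of_le_extender hT hE hQ ha (U := Subgroup.zpowers u) (Subgroup.zpowers_le.mpr hux)
    (fun X hQX hXN huX => hbig X hQX hXN (huX (Subgroup.mem_zpowers u))) (a := a)

theorem disp_pow (h : Setup F E p c) (hQ : E.IsCentric Q) (γ : liftGroup F E Q c)
    (hfix : (restr F E Q c γ : MulAut Q) ⟨c ^ p, h.pow_mem_centric hQ⟩ =
      ⟨c ^ p, h.pow_mem_centric hQ⟩) :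
    disp (γ : LAut Q c) ^ p = 1 := by
  have h1 := restr_isLift γ ⟨c ^ p, h.pow_mem_centric hQ⟩
  rw [hfix, show Subgroup.inclusion le_sup_left (⟨c ^ p, h.pow_mem_centric hQ⟩ : Q) =
    cElt Q c ^ p from Subtype.ext rfl, map_pow] at h1
  have h2 : (c * disp (γ : LAut Q c)) ^ p = c ^ p := by
    rw [disp, mul_inv_cancel_left]
    exact congrArg Subtype.val h1
  rwa [(h.commute (hQ.1 γ.2.2.1)).symm.mul_pow, mul_eq_left] at h2

/-- A quadratic offender in the normalizer controls the automorphisms. -/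
theorem fixY_of_quadratic (hp : p ≠ 2) (h : Setup F E p c) (hQ : E.IsFullyNormalized Q)
    (hQc : E.IsCentric Q)
    (hfix : ∀ γ : liftGroup F E Q c, (restr F E Q c γ : MulAut Q)
      ⟨c ^ p, h.pow_mem_centric hQc⟩ = ⟨c ^ p, h.pow_mem_centric hQc⟩)
    {U : Subgroup Ω} (hU : U ≤ normalizerIn T Q) (hUe : IsElementaryAbelian p U)
    (hquad : ∀ u ∈ U, ∀ v ∈ Q, (∀ x ∈ Q, x * v = v * x) → v ^ p = 1 →
      u * (u * v * u⁻¹ * v⁻¹) * u⁻¹ = u * v * u⁻¹ * v⁻¹)
    (hbig : ∀ X : Subgroup Ω, Q ≤ X → X ≤ normalizerIn T Q → U ≤ X →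
      ∀ ψ ∈ E.Hom X, FixY F (Subgroup.zpowers c) X ψ) :
    ∀ a ∈ E.autGroup Q, FixY F (Subgroup.zpowers c) Q (Q.subtype.comp a.toMonoidHom) := by
  intro a ha
  haveI := finite_liftGroup h hQ.1
  obtain ⟨R, hR⟩ : ∃ R : Sylow p (liftGroup F E Q c), ∀ γ : (liftGroup F E Q c),
      γ ∈ R ↔ (restr F E Q c γ : MulAut Q) ∈ autInducedBy T Q := exists_sylow_lift h hQ hQc
  letI : CommGroup (Subgroup.center ↥(Q ⊔ Subgroup.zpowers c)) :=
    { (inferInstance : Group (Subgroup.center ↥(Q ⊔ Subgroup.zpowers c))) with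
      mul_comm := fun x y => Subtype.ext (Subgroup.mem_center_iff.mp y.2 (x : ↥(Q ⊔ Subgroup.zpowers c))) }
  let W : Subgroup (Subgroup.center ↥(Q ⊔ Subgroup.zpowers c)) :=
    { carrier := {x | ∃ q ∈ Q, ∃ j : ℤ, q ^ p = 1 ∧ ((x : ↥(Q ⊔ Subgroup.zpowers c)) : Ω) = q * c ^ j}
      one_mem' := ⟨1, Q.one_mem, 0, one_pow p, by simp⟩
      mul_mem' := by
        rintro x y ⟨q, hq, i, hqp, hx⟩ ⟨r, hr, j, hrp, hy⟩
        have hc : Commute r (c ^ i) := (h.commute (hQ.1 hr)).zpow_right i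
        have hqr : Commute q r := by
          have := congrArg (fun z : ↥(Q ⊔ Subgroup.zpowers c) => (z : Ω))
            (Subgroup.mem_center_iff.mp y.2 ⟨q, Subgroup.mem_sup_left hq⟩)
          simp only [Subgroup.coe_mul, hy] at this
          have hcq : Commute q (c ^ j) := (h.commute (hQ.1 hq)).zpow_right j
          refine mul_right_cancel (b := c ^ j) ?_
          rw [mul_assoc, this, mul_assoc, mul_assoc, hcq.eq]
        refine ⟨q * r, Q.mul_mem hq hr, i + j, by rw [hqr.mul_pow, hqp, hrp, one_mul], ?_⟩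
        show ((x : ↥(Q ⊔ Subgroup.zpowers c)) : Ω) * ((y : ↥(Q ⊔ Subgroup.zpowers c)) : Ω) = _
        rw [hx, hy, zpow_add, mul_assoc, ← mul_assoc (c ^ i), ← hc.eq, mul_assoc, ← mul_assoc q]
      inv_mem' := by
        rintro x ⟨q, hq, i, hqp, hx⟩
        refine ⟨q⁻¹, Q.inv_mem hq, -i, by rw [inv_pow, hqp, inv_one], ?_⟩
        show (((x : ↥(Q ⊔ Subgroup.zpowers c)) : Ω))⁻¹ = _
        rw [hx, mul_inv_rev, zpow_neg]
        exact ((h.commute (hQ.1 hq)).zpow_right i).inv_inv.symm.eq }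
  let act : (liftGroup F E Q c) →* MulAut (Subgroup.center ↥(Q ⊔ Subgroup.zpowers c)) := (centreRestr (Q ⊔ Subgroup.zpowers c) (liftGroup F E Q c))
  have hact : ∀ (γ : (liftGroup F E Q c)) (x : Subgroup.center ↥(Q ⊔ Subgroup.zpowers c)),
      ((act γ x : Subgroup.center ↥(Q ⊔ Subgroup.zpowers c)) : ↥(Q ⊔ Subgroup.zpowers c)) = (γ : LAut Q c) x := fun _ _ => rfl
  have hW : ∀ γ, ∀ x ∈ W, act γ x ∈ W := by
    rintro γ x ⟨q, hq, j, hqp, hx⟩
    have e : (x : ↥(Q ⊔ Subgroup.zpowers c)) = Subgroup.inclusion le_sup_left (⟨q, hq⟩ : Q) * cElt Q c ^ j :=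
      Subtype.ext hx
    set b : Q := (restr F E Q c γ : MulAut Q) ⟨q, hq⟩ with hb
    set z := disp (γ : LAut Q c)
    have hzc : Commute c z := (h.commute (hQ.1 γ.2.2.1)).symm
    have hbz : Commute (b : Ω) z := disp_central h hQ.1 γ b.2
    have hbp : (b : Ω) ^ p = 1 := by
      rw [hb, ← SubmonoidClass.coe_pow, ← map_pow]
      simp [show (⟨q, hq⟩ : Q) ^ p = 1 from Subtype.ext hqp]
    refine ⟨(b : Ω) * z ^ j, Q.mul_mem b.2 (Q.zpow_mem γ.2.2.1 j), j, ?_, ?_⟩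
    · rw [(hbz.zpow_right j).mul_pow, hbp, one_mul, ← zpow_natCast, ← zpow_mul, mul_comm,
        zpow_mul, zpow_natCast, disp_pow h hQc γ (hfix γ), one_zpow]
    · rw [hact, e, map_mul, map_zpow, restr_isLift γ, apply_cElt _ γ.2.2.1]
      show (b : Ω) * (c * z) ^ j = _
      rw [hzc.mul_zpow, (hzc.zpow_zpow j j).eq, mul_assoc]
  set ρW := actSub act W hW
  let KD : Subgroup W :=
    (dispKer F Q c).comap ((Q ⊔ Subgroup.zpowers c).subtype.comp ((Subgroup.center ↥(Q ⊔ Subgroup.zpowers c)).subtype.comp W.subtype))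
  have hKD : ∀ γ, ∀ x ∈ KD, ρW γ x ∈ KD := by
    intro γ x hx
    have e : ((x : Subgroup.center ↥(Q ⊔ Subgroup.zpowers c)) : ↥(Q ⊔ Subgroup.zpowers c)) = Subgroup.inclusion le_sup_left
        (⟨_, (show (((x : Subgroup.center ↥(Q ⊔ Subgroup.zpowers c)) : ↥(Q ⊔ Subgroup.zpowers c)) : Ω) ∈ dispKer F Q c from hx).1⟩ : Q) :=
      Subtype.ext rfl
    show (((γ : LAut Q c) ((x : Subgroup.center ↥(Q ⊔ Subgroup.zpowers c)) : ↥(Q ⊔ Subgroup.zpowers c))) : Ω) ∈ dispKer F Q c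
    rw [e, restr_isLift γ]
    exact restr_apply_mem_dispKer h hQ.1 γ hx
  set ρ := actQuot ρW KD hKD with hρ
  have hcc : cElt Q c ∈ Subgroup.center ↥(Q ⊔ Subgroup.zpowers c) := Subgroup.mem_center_iff.mpr fun x => Subtype.ext (by
    obtain ⟨q, hq, j, hx⟩ := h.exists_eq_mul hQ.1 x.2
    show (x : Ω) * c = c * (x : Ω)
    rw [hx]
    exact (((h.commute (hQ.1 hq))).mul_left (Commute.zpow_self c j)).eq)
  have hcW : (⟨cElt Q c, hcc⟩ : Subgroup.center ↥(Q ⊔ Subgroup.zpowers c)) ∈ W :=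
    ⟨1, Q.one_mem, 1, one_pow p, by simp [cElt]⟩
  set cbar : W ⧸ KD := QuotientGroup.mk ⟨_, hcW⟩
  have hval : ∀ γ : (liftGroup F E Q c), ρ γ cbar = cbar → disp (γ : LAut Q c) ∈ dispKer F Q c := by
    intro γ hγ
    rw [hρ, actQuot_mk, eq_comm, QuotientGroup.eq] at hγ
    exact hγ
  have hfixR : ∀ γ : (liftGroup F E Q c), disp (γ : LAut Q c) ∈ dispKer F Q c → ρ γ cbar = cbar := by
    intro γ hγ
    rw [hρ, actQuot_mk, eq_comm, QuotientGroup.eq]
    exact hγ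
  let AU : Subgroup (liftGroup F E Q c) := (autInducedBy U (Q ⊔ Subgroup.zpowers c)).subgroupOf (liftGroup F E Q c)
  have hAU : ∀ b ∈ AU, ∃ u ∈ U, ∀ x : ↥(Q ⊔ Subgroup.zpowers c), (((b : LAut Q c) x : ↥(Q ⊔ Subgroup.zpowers c)) : Ω) = u * (x : Ω) * u⁻¹ :=
    fun b hb => mem_autInducedBy_iff.mp (Subgroup.mem_subgroupOf.mp hb)
  obtain ⟨n, hn⟩ := h.pgroup ⟨c, h.mem.1⟩
  have hn' : c ^ p ^ n = 1 := congrArg Subtype.val hn
  have hcpow : cbar ^ p ^ n = 1 := by
    rw [← QuotientGroup.mk_pow]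
    refine (QuotientGroup.eq_one_iff _).mpr ?_
    show c ^ p ^ n ∈ dispKer F Q c
    rw [hn']
    exact one_mem _
  obtain ⟨γ, rfl⟩ := exists_lift h hQc ha
  refine fixY_of_lift h hQ.1 (hval γ ?_)
  refine CfsgLib.FusionExamples.FixedTransfer.fixed_of_control ρ hp R AU ?_ ?_ ?_ ?_ n cbar hcpow
    (fun r hr => hfixR r (disp_mem_of_induced h hQ.1 ((hR r).mp hr))) ?_ γ
  · intro b hb
    obtain ⟨u, hu, hub⟩ := hAU b hb
    refine (hR b).mpr (mem_autInducedBy_iff.mpr ⟨u, (hU hu).1, fun x => ?_⟩)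
    have h1 := congrArg Subtype.val (restr_isLift b x)
    rw [hub] at h1
    exact h1.symm
  · intro b hb d hd
    obtain ⟨u, hu, hub⟩ := hAU b hb
    obtain ⟨w, hw, hwd⟩ := hAU d hd
    refine Subtype.ext (MulEquiv.ext fun x => Subtype.ext ?_)
    show (((b : LAut Q c) ((d : LAut Q c) x) : ↥(Q ⊔ Subgroup.zpowers c)) : Ω) = ((d : LAut Q c) ((b : LAut Q c) x) : ↥(Q ⊔ Subgroup.zpowers c))
    rw [hub, hwd, hwd, hub]
    calc u * (w * x * w⁻¹) * u⁻¹ = (u * w) * x * (u * w)⁻¹ := by group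
      _ = (w * u) * x * (w * u)⁻¹ := by
        rw [CfsgLib.ThompsonJ.isElementaryAbelian_comm hUe hu hw]
      _ = w * (u * x * u⁻¹) * w⁻¹ := by group
  · intro b hb
    obtain ⟨u, hu, hub⟩ := hAU b hb
    refine Subtype.ext (MulEquiv.ext fun x => Subtype.ext ?_)
    have hpow : ∀ k : ℕ, ((((b : LAut Q c) ^ k) x : ↥(Q ⊔ Subgroup.zpowers c)) : Ω) = u ^ k * (x : Ω) * (u ^ k)⁻¹ := by
      intro k
      induction k with
      | zero => simp
      | succ k ih => rw [pow_succ', MulAut.mul_apply, hub, ih, pow_succ']; group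
    show ((((b ^ p : (liftGroup F E Q c)) : LAut Q c) x : ↥(Q ⊔ Subgroup.zpowers c)) : Ω) = x
    rw [SubgroupClass.coe_pow, hpow, hUe.2 u hu]
    simp
  · intro b hb v _
    obtain ⟨u, hu, hub⟩ := hAU b hb
    obtain ⟨x, rfl⟩ := QuotientGroup.mk_surjective v
    rw [hρ, actQuot_mk, ← QuotientGroup.mk_div, actQuot_mk]
    refine congrArg _ (Subtype.ext (Subtype.ext (Subtype.ext ?_)))
    obtain ⟨q, hq, j, hqp, hx⟩ := x.2
    have huc : Commute u (c ^ j) := (h.commute (hU hu).1).zpow_right j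
    have hqc : Commute q (c ^ j) := (h.commute (hQ.1 hq)).zpow_right j
    have hqcen : ∀ y ∈ Q, y * q = q * y := by
      intro y hy
      have h1 := congrArg (fun z : ↥(Q ⊔ Subgroup.zpowers c) => (z : Ω))
        (Subgroup.mem_center_iff.mp (x : Subgroup.center ↥(Q ⊔ Subgroup.zpowers c)).2 ⟨y, Subgroup.mem_sup_left hy⟩)
      simp only [Subgroup.coe_mul, hx] at h1
      refine mul_right_cancel (b := c ^ j) ?_
      rw [mul_assoc, h1, mul_assoc, mul_assoc, ((h.commute (hQ.1 hy)).zpow_right j).eq]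
    have hb1 : (((ρW b x / x : W) : Subgroup.center ↥(Q ⊔ Subgroup.zpowers c)) : ↥(Q ⊔ Subgroup.zpowers c)) =
        ((b : LAut Q c) ((x : Subgroup.center ↥(Q ⊔ Subgroup.zpowers c)) : ↥(Q ⊔ Subgroup.zpowers c))) / ((x : Subgroup.center ↥(Q ⊔ Subgroup.zpowers c)) : ↥(Q ⊔ Subgroup.zpowers c)) := rfl
    have hd : ((((ρW b x / x : W) : Subgroup.center ↥(Q ⊔ Subgroup.zpowers c)) : ↥(Q ⊔ Subgroup.zpowers c)) : Ω) = u * q * u⁻¹ * q⁻¹ := by
      rw [hb1, Subgroup.coe_div, hub, hx, div_eq_mul_inv, mul_inv_rev]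
      calc u * (q * c ^ j) * u⁻¹ * ((c ^ j)⁻¹ * q⁻¹)
          = u * q * (c ^ j * u⁻¹) * (c ^ j)⁻¹ * q⁻¹ := by group
        _ = u * q * (u⁻¹ * c ^ j) * (c ^ j)⁻¹ * q⁻¹ := by rw [huc.inv_left.eq]
        _ = u * q * u⁻¹ * q⁻¹ := by group
    show (((b : LAut Q c) (((ρW b x / x : W) : Subgroup.center ↥(Q ⊔ Subgroup.zpowers c)) : ↥(Q ⊔ Subgroup.zpowers c))) : Ω) = _
    rw [hub, hd]
    exact hquad u hu q hq hqcen hqp
  · intro g hg
    refine hfixR g ?_
    have hfixg : FixY F (Subgroup.zpowers c) Q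
        (Q.subtype.comp (restr F E Q c g : MulAut Q).toMonoidHom) := by
      refine fixY_of_le_extender h.tgroup h.normal.1.1 hQ (restr F E Q c g).2 (fun u hu => ?_) hbig
      have huT : u ∈ T := (hU hu).1
      obtain ⟨τ, hτr, -, hτx⟩ := exists_conjLift (F := F) (E := E) h hQ.1 huT (hU hu).2
      have hτA : τ ∈ AU :=
        Subgroup.mem_subgroupOf.mpr (mem_autInducedBy_iff.mpr ⟨u, hu, hτx⟩)
      have h1 := (hR _).mp (hg τ hτA)
      rw [map_mul, map_mul, map_inv] at h1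
      simp only [Subgroup.coe_mul, Subgroup.coe_inv, hτr] at h1
      exact mem_extender_of_conj_mem _ huT (hU hu).2 h1
    obtain ⟨γ', hγ', hd⟩ := exists_lift_of_fixY h hQ.1 (restr F E Q c g).2 hfixg
    have h2 := congrArg (fun z : (liftGroup F E Q c) => disp (z : LAut Q c)) (inv_mul_cancel_right g γ')
    have hr : restr F E Q c (g * γ'⁻¹) = 1 := by
      rw [map_mul, map_inv, mul_inv_eq_one]
      exact Subtype.ext hγ'.symm
    rw [disp_mul_of_restr_eq_one hr, hd, mul_one] at h2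
    exact h2 ▸ disp_mem_dispKer hr

/-- A displacement possible over a normal centric subgroup `Q₀` of `Q` is realized on `Q⟨c⟩` by
an automorphism of `F` fixing `Q₀` and preserving `Q`. -/
theorem exists_aut_realizing (h : Setup F E p c) (hQ : Q ≤ T) {Q₀ : Subgroup Ω} (hQ₀ : Q₀ ≤ Q)
    (hQN : Q ≤ Subgroup.normalizer (Q₀ : Set Ω)) (hQ₀c : E.IsCentric Q₀) {k : Ω}
    (hk : k ∈ dispKer F Q₀ c) :
    ∃ η ∈ F.autGroup (Q ⊔ Subgroup.zpowers c),
      (∀ x : ↥(Q ⊔ Subgroup.zpowers c), (x : Ω) ∈ Q₀ → η x = x) ∧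
      (∀ x : ↥(Q ⊔ Subgroup.zpowers c), (x : Ω) ∈ Q → ((η x : _) : Ω) ∈ Q) ∧
      ((η (cElt Q c) : _) : Ω) = c * k := by
  obtain ⟨hkQ, μ, hμ, hμQ, hμc⟩ := hk
  have hinv := h.normal.1.2.2
  have hF := h.normal.1.2.1
  have hcp : c ^ p ∈ Q₀ := h.pow_mem_centric hQ₀c
  have hPS : (Q₀ ⊔ Subgroup.zpowers c) ≤ S := h.qc_le hQ₀c.1
  have hcN : ∀ x ∈ (Q₀ ⊔ Subgroup.zpowers c), x ∈ T → x ∈ Q₀ := by
    intro x hx hxT
    obtain ⟨q, hq, j, rfl⟩ := h.exists_eq_mul hQ₀c.1 hx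
    have hcj : c ^ j ∈ T := by
      have := T.mul_mem (T.inv_mem (hQ₀c.1 hq)) hxT
      rwa [inv_mul_cancel_left] at this
    obtain ⟨m, rfl⟩ : (p : ℤ) ∣ j := by
      by_contra hnd
      obtain ⟨u, v, huv⟩ : ∃ u v : ℤ, u * j + v * p = 1 :=
        Int.isCoprime_iff_gcd_eq_one.mpr (by
          rw [Int.gcd_comm]
          exact ((Fact.out : p.Prime).coprime_iff_not_dvd.mpr fun hd =>
            hnd (Int.ofNat_dvd_left.mpr hd)))
      refine h.not_mem ?_
      have := T.mul_mem (T.zpow_mem hcj u) (T.zpow_mem h.pow_mem v)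
      rwa [← zpow_natCast, ← zpow_mul, ← zpow_mul, ← zpow_add, mul_comm j u, mul_comm (p : ℤ) v,
        huv, zpow_one] at this
    rw [zpow_mul, zpow_natCast]
    exact Q₀.mul_mem hq (Q₀.zpow_mem hcp m)
  have hQcN : Q ⊔ Subgroup.zpowers c ≤ normalizerIn S (Q₀ ⊔ Subgroup.zpowers c) := by
    refine sup_le (fun q hq => ⟨h.le (hQ hq), ?_⟩)
      ((le_sup_right : Subgroup.zpowers c ≤ (Q₀ ⊔ Subgroup.zpowers c)).trans (le_normalizerIn hPS))
    show q ∈ Subgroup.normalizer ((Q₀ ⊔ Subgroup.zpowers c : Subgroup Ω) : Set Ω)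
    rw [Subgroup.mem_normalizer_iff_map_conj_eq, Subgroup.map_sup,
      Subgroup.mem_normalizer_iff_map_conj_eq.mp (hQN hq)]
    congr 1
    rw [MonoidHom.map_zpowers]
    show Subgroup.zpowers (q * c * q⁻¹) = _
    rw [(h.commute (hQ hq)).eq, mul_inv_cancel_right]
  obtain ⟨Ps, hPPs, hPs⟩ := exists_isFullyNormalized F hPS
  obtain ⟨f, hf, -, hfP⟩ := exists_hom_normalizerIn_of_fullyNormalized h.pgroup hF hPs hPPs
  have lP : (Q₀ ⊔ Subgroup.zpowers c) ≤ normalizerIn S (Q₀ ⊔ Subgroup.zpowers c) := le_normalizerIn hPS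
  have hfPF : f.comp (Subgroup.inclusion lP) ∈ F.Hom (Q₀ ⊔ Subgroup.zpowers c) := restrict_mem hf lP
  have hr : (f.comp (Subgroup.inclusion lP)).range = Ps := (range_comp_inclusion f lP).trans hfP
  set e := isoOfHom (f.comp (Subgroup.inclusion lP)) (F.injective_of_mem hfPF) hr
  have hμs : MulAut.congr e μ ∈ F.autGroup Ps :=
    (autGroup_map_congr hfPF hr).le ⟨μ, hμ, rfl⟩
  set μs : F.autGroup Ps := ⟨MulAut.congr e μ, hμs⟩
  haveI := finite_of_le hPs.1
  haveI := finite_autGroup F hPs.1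
  -- the automorphisms trivial on `Ps ∩ T` and on `Ps` modulo `T`
  let K : Subgroup (F.autGroup Ps) :=
    { carrier := {b | (∀ y : Ps, (y : Ω) ∈ T → (b : MulAut Ps) y = y) ∧
        ∀ y : Ps, ((y⁻¹ * (b : MulAut Ps) y : Ps) : Ω) ∈ T}
      one_mem' := ⟨fun _ _ => rfl, fun y => by simp⟩
      mul_mem' := fun {b d} hb hd => ⟨fun y hy => by
          show (b : MulAut Ps) ((d : MulAut Ps) y) = y
          rw [hd.1 y hy, hb.1 y hy], fun y => by
          show ((y⁻¹ * (b : MulAut Ps) ((d : MulAut Ps) y) : Ps) : Ω) ∈ T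
          have e : y⁻¹ * (b : MulAut Ps) ((d : MulAut Ps) y) =
              (y⁻¹ * (b : MulAut Ps) y) * (y⁻¹ * (d : MulAut Ps) y) := by
            rw [← hb.1 _ (hd.2 y), mul_assoc, ← map_mul, mul_inv_cancel_left]
          rw [e]
          exact T.mul_mem (hb.2 y) (hd.2 y)⟩
      inv_mem' := fun {b} hb => ⟨fun y hy => by
          show (b : MulAut Ps).symm y = y
          rw [MulEquiv.symm_apply_eq, hb.1 y hy], fun y => by
          show ((y⁻¹ * (b : MulAut Ps).symm y : Ps) : Ω) ∈ T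
          obtain ⟨w, rfl⟩ := (b : MulAut Ps).surjective y
          rw [MulEquiv.symm_apply_apply,
            show ((b : MulAut Ps) w)⁻¹ * w = (w⁻¹ * (b : MulAut Ps) w)⁻¹ by group]
          exact T.inv_mem (hb.2 w)⟩ }
  haveI hKn : K.Normal := ⟨fun b hb g => by
    have hgT : ∀ (g : F.autGroup Ps) (y : Ps), (y : Ω) ∈ T →
        (((g : MulAut Ps) y : Ps) : Ω) ∈ T := fun g y hy =>
      stronglyClosed_apply hinv.2.1 ((mem_autGroup_iff F hPs.1).mp g.2) y hy
    refine ⟨fun y hy => ?_, fun y => ?_⟩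
    · show (g : MulAut Ps) ((b : MulAut Ps) ((g : MulAut Ps).symm y)) = y
      rw [hb.1 ((g : MulAut Ps).symm y) (hgT g⁻¹ y hy), MulEquiv.apply_symm_apply]
    · obtain ⟨w, rfl⟩ := (g : MulAut Ps).surjective y
      show ((((g : MulAut Ps) w)⁻¹ *
        (g : MulAut Ps) ((b : MulAut Ps) ((g : MulAut Ps).symm ((g : MulAut Ps) w))) : Ps) : Ω) ∈ T
      rw [MulEquiv.symm_apply_apply, ← map_inv, ← map_mul]
      exact hgT g _ (hb.2 w)⟩
  have hKp : IsPGroup p K := by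
    obtain ⟨n, hn⟩ := IsPGroup.iff_card.mp h.tgroup
    rintro ⟨b, hb⟩
    refine ⟨n, Subtype.ext (Subtype.ext (MulEquiv.ext fun y => ?_))⟩
    have hit : ∀ j : ℕ, ((b : MulAut Ps) ^ j) y = y * (y⁻¹ * (b : MulAut Ps) y) ^ j := by
      intro j
      induction j with
      | zero => simp
      | succ j ih =>
        rw [pow_succ', MulAut.mul_apply, ih, map_mul, map_pow, hb.1 _ (hb.2 y)]
        conv_rhs => rw [pow_succ', ← mul_assoc, mul_inv_cancel_left]
    show ((b : MulAut Ps) ^ p ^ n) y = y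
    rw [hit, show (y⁻¹ * (b : MulAut Ps) y) ^ p ^ n = 1 from ?_, mul_one]
    refine Subtype.ext ?_
    rw [SubmonoidClass.coe_pow, ← hn]
    exact congrArg Subtype.val (pow_card_eq_one' (x := (⟨_, hb.2 y⟩ : T)))
  have he_T : ∀ x : ↥(Q₀ ⊔ Subgroup.zpowers c), ((e x : Ps) : Ω) ∈ T ↔ (x : Ω) ∈ Q₀ := by
    refine fun x => ⟨fun hx => hcN x x.2 ?_, fun hx => ?_⟩
    · obtain ⟨θ, hθ, -, hθx, -⟩ := exists_inverse hfPF hr
      rw [← hθx x (e x).2]
      exact stronglyClosed_apply hinv.2.1 hθ _ hx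
    · exact stronglyClosed_apply hinv.2.1 hfPF x (hQ₀c.1 hx)
  have hμT : ∀ x : ↥(Q₀ ⊔ Subgroup.zpowers c), ((x⁻¹ * μ x : ↥(Q₀ ⊔ Subgroup.zpowers c)) : Ω) ∈ Q₀ := by
    intro x
    obtain ⟨q, hq, j, hx⟩ := h.exists_eq_mul hQ₀c.1 x.2
    have e1 : x = Subgroup.inclusion le_sup_left ⟨q, hq⟩ * cElt Q₀ c ^ j :=
      Subtype.ext (by simpa [cElt] using hx)
    have e2 : (μ x : Ω) = q * (c * k) ^ j := by
      rw [e1, map_mul, map_zpow, hμQ, ← hμc]
      rfl
    show (x : Ω)⁻¹ * (μ x : Ω) ∈ Q₀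
    rw [e2, hx, (h.commute (hQ₀c.1 hkQ)).symm.mul_zpow, ← mul_assoc q, inv_mul_cancel_left]
    exact Q₀.zpow_mem hkQ j
  have hμK : μs ∈ K := by
    refine ⟨fun y hy => ?_, fun y => ?_⟩
    · obtain ⟨x, rfl⟩ := e.surjective y
      show MulAut.congr e μ (e x) = e x
      rw [MulAut.congr_apply]
      simp only [MulEquiv.trans_apply, MulEquiv.symm_apply_apply]
      exact congrArg e (hμQ ⟨x, (he_T x).mp hy⟩)
    · obtain ⟨x, rfl⟩ := e.surjective y
      show (((e x)⁻¹ * MulAut.congr e μ (e x) : Ps) : Ω) ∈ T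
      rw [MulAut.congr_apply]
      simp only [MulEquiv.trans_apply, MulEquiv.symm_apply_apply, ← map_inv, ← map_mul]
      exact (he_T _).mpr (hμT x)
  obtain ⟨-, R, hR⟩ := (centralized_automized_of_fullyNormalized h.pgroup hF hPs).2
  have hμR := le_sylow_of_normal hKp R hμK
  rw [hR, Subgroup.mem_subgroupOf] at hμR
  obtain ⟨s, hs, hsx⟩ := mem_autInducedBy_iff.mp hμR
  have hsP : ∀ x : ↥(Q₀ ⊔ Subgroup.zpowers c), s * f (Subgroup.inclusion lP x) * s⁻¹ = f (Subgroup.inclusion lP (μ x)) := by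
    intro x
    refine Eq.trans (hsx (e x)).symm ?_
    show ((MulAut.congr e μ (e x) : Ps) : Ω) = _
    rw [MulAut.congr_apply]
    simp only [MulEquiv.trans_apply, MulEquiv.symm_apply_apply]
    rfl
  set χ := f.comp (Subgroup.inclusion hQcN)
  have hχ : χ ∈ F.Hom (Q ⊔ Subgroup.zpowers c) := restrict_mem hf hQcN
  obtain ⟨θ, hθ, -, hθx, -⟩ := exists_inverse hχ rfl
  have hf0 : f.comp (Subgroup.inclusion ((le_sup_left : Q₀ ≤ (Q₀ ⊔ Subgroup.zpowers c)).trans lP)) ∈ F.Hom Q₀ :=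
    restrict_mem hf _
  -- conjugation by `s` maps the image of each element of `Q` into the image of `Q`
  have hsQ : ∀ q : Q, ∃ q' : Q, s * χ (Subgroup.inclusion le_sup_left q) * s⁻¹ =
      χ (Subgroup.inclusion le_sup_left q') := by
    intro q
    set a := χ (Subgroup.inclusion le_sup_left q) with ha
    have haT : a ∈ T := stronglyClosed_apply hinv.2.1 hχ _ (hQ q.2)
    have hfix : ∀ x : Q₀, s * f ⟨x, lP (Subgroup.mem_sup_left x.2)⟩ * s⁻¹ =
        f ⟨x, lP (Subgroup.mem_sup_left x.2)⟩ := fun x => by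
      refine (hsP (Subgroup.inclusion le_sup_left x)).trans ?_
      rw [hμQ]
      rfl
    obtain ⟨w, hw⟩ : s * a * s⁻¹ * a⁻¹ ∈
        (f.comp (Subgroup.inclusion ((le_sup_left : Q₀ ≤ (Q₀ ⊔ Subgroup.zpowers c)).trans lP))).range := by
      refine (isCentric_of_hom_invariant hinv hQ₀c hf0).2 _
        (isConj_refl E (isCentric_of_hom_invariant hinv hQ₀c hf0).1) ⟨T.mul_mem
          (stronglyClosed_conj hinv.2.1 hs haT) (T.inv_mem haT), ?_⟩
      rintro _ ⟨x, rfl⟩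
      set b := f ⟨x, lP (Subgroup.mem_sup_left x.2)⟩
      have hy : (q : Ω)⁻¹ * x * (q : Ω)⁻¹⁻¹ ∈ Q₀ :=
        mem_normalizer_conj (Subgroup.inv_mem _ (hQN q.2)) x.2
      have h1 := hfix ⟨_, hy⟩
      have h2 : f ⟨(q : Ω)⁻¹ * x * (q : Ω)⁻¹⁻¹, lP (Subgroup.mem_sup_left hy)⟩ =
          a⁻¹ * b * a := by
        rw [ha]
        show _ = (f _)⁻¹ * f _ * f _
        rw [← map_inv, ← map_mul, ← map_mul]
        exact congrArg f (Subtype.ext (by simp))
      rw [h2] at h1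
      have h3 : s * b * s⁻¹ = b := hfix x
      show b * (s * a * s⁻¹ * a⁻¹) = s * a * s⁻¹ * a⁻¹ * b
      calc b * (s * a * s⁻¹ * a⁻¹) = (s * b * s⁻¹) * (s * a * s⁻¹ * a⁻¹) := by rw [h3]
        _ = (s * a * s⁻¹) * (s * (a⁻¹ * b * a) * s⁻¹) * a⁻¹ := by group
        _ = (s * a * s⁻¹) * (a⁻¹ * b * a) * a⁻¹ := by rw [h1]
        _ = s * a * s⁻¹ * a⁻¹ * b := by group
    refine ⟨⟨w, hQ₀ w.2⟩ * q, ?_⟩
    rw [map_mul, map_mul, ← ha]
    show _ = f ⟨w, _⟩ * a
    rw [show f ⟨w, _⟩ = s * a * s⁻¹ * a⁻¹ from hw, inv_mul_cancel_right]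
  have hsc : s * χ (cElt Q c) * s⁻¹ =
      χ (cElt Q c * Subgroup.inclusion le_sup_left (⟨k, hQ₀ hkQ⟩ : Q)) := by
    refine (hsP (cElt Q₀ c)).trans ?_
    exact congrArg f (Subtype.ext hμc)
  have hm : ∀ z, (conjHom χ.range s).comp (χ.codRestrict χ.range fun z => ⟨z, rfl⟩) z ∈ χ.range := by
    refine apply_mem_of_sup _ (fun q => ?_) ?_
    · obtain ⟨q', hq'⟩ := hsQ q
      exact ⟨_, hq'.symm⟩
    · rintro ⟨_, j, rfl⟩
      have e1 : Subgroup.inclusion le_sup_right (⟨c ^ j, ⟨j, rfl⟩⟩ : Subgroup.zpowers c) =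
          cElt Q c ^ j := Subtype.ext rfl
      rw [e1, map_zpow]
      exact zpow_mem (show _ ∈ χ.range from ⟨_, hsc.symm⟩) j
  set φ := θ.comp (((conjHom χ.range s).comp (χ.codRestrict χ.range fun z => ⟨z, rfl⟩)).codRestrict
    χ.range hm) with hφ
  have hφF : φ ∈ F.Hom (Q ⊔ Subgroup.zpowers c) :=
    F.comp_mem (F.comp_mem hχ (F.conj_mem (range_le hχ) hs) _) hθ hm
  haveI := finite_of_le (h.qc_le hQ)
  obtain ⟨θr, hθr⟩ : ∃ r, r = θ.range := ⟨_, rfl⟩
  have hval : ∀ z w, s * χ z * s⁻¹ = χ w → φ z = (w : Ω) := by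
    intro z w hzw
    refine Eq.trans (congrArg θ (Subtype.ext ?_)) (hθx w ⟨w, rfl⟩)
    exact hzw
  obtain ⟨η, hη, hηx⟩ := exists_aut_of_hom' F hφF fun z => by
    obtain ⟨w, hw⟩ := hm z
    rw [hval z w hw.symm]
    exact w.2
  refine ⟨η, hη, fun x hx => Subtype.ext ?_, fun x hx => ?_, ?_⟩
  · rw [hηx]
    refine hval x x ?_
    refine (hsP ⟨(x : Ω), Subgroup.mem_sup_left hx⟩).trans ?_
    rw [show μ ⟨(x : Ω), Subgroup.mem_sup_left hx⟩ = ⟨(x : Ω), Subgroup.mem_sup_left hx⟩ from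
      hμQ ⟨x, hx⟩]
    rfl
  · obtain ⟨q', hq'⟩ := hsQ ⟨x, hx⟩
    rw [hηx, hval x _ hq']
    exact q'.2
  · rw [hηx, hval _ _ hsc]
    rfl

/-- Automorphisms whose restriction to a centric, characteristic, self-centralizing subgroup is
fixed are fixed. -/
theorem fixY_of_restrict (h : Setup F E p c) (hQ : E.IsFullyNormalized Q) (hQc : E.IsCentric Q)
    {Q₀ : Subgroup Ω} (hQ₀ : Q₀ ≤ Q) (hQ₀c : E.IsCentric Q₀)
    (hchar : ∀ (a : MulAut Q) (x : Q), (x : Ω) ∈ Q₀ → ((a x : Q) : Ω) ∈ Q₀)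
    (hC : centralizerIn Q Q₀ ≤ Q₀)
    (hfix : ∀ γ : liftGroup F E Q c, (restr F E Q c γ : MulAut Q)
      ⟨c ^ p, h.pow_mem_centric hQc⟩ = ⟨c ^ p, h.pow_mem_centric hQc⟩)
    (hres : ∀ a ∈ E.autGroup Q, FixY F (Subgroup.zpowers c) Q₀
      ((Q.subtype.comp a.toMonoidHom).comp (Subgroup.inclusion hQ₀))) :
    ∀ a ∈ E.autGroup Q, FixY F (Subgroup.zpowers c) Q (Q.subtype.comp a.toMonoidHom) := by
  intro a ha
  have hinv := h.normal.1.2.2
  haveI := finite_liftGroup h hQ.1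
  obtain ⟨R, hR⟩ : ∃ R : Sylow p (liftGroup F E Q c), ∀ γ : (liftGroup F E Q c),
      γ ∈ R ↔ (restr F E Q c γ : MulAut Q) ∈ autInducedBy T Q := exists_sylow_lift h hQ hQc
  have hQN : Q ≤ Subgroup.normalizer (Q₀ : Set Ω) := by
    intro q hq
    refine Subgroup.mem_normalizer_iff.mpr fun x => ⟨fun hx => ?_, fun hx => ?_⟩
    · exact hchar (conjAut Q q (Subgroup.le_normalizer hq)) ⟨x, hQ₀ hx⟩ hx
    · have h1 := hchar (conjAut Q q⁻¹ (Subgroup.le_normalizer (Q.inv_mem hq))) ⟨_, hQ₀ hx⟩ hx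
      rw [conjAut_apply] at h1
      simpa [mul_assoc] using h1
  have hcen : ∀ γ : (liftGroup F E Q c), disp (γ : LAut Q c) ∈ Q₀ := fun γ =>
    hC ⟨γ.2.2.1, fun q hq => (disp_central h hQ.1 γ (hQ₀ hq)).eq⟩
  -- displacements are possible over `Q₀`
  have hK₀ : ∀ γ : (liftGroup F E Q c), disp (γ : LAut Q c) ∈ dispKer F Q₀ c := by
    intro γ
    set b := (restr F E Q c γ : MulAut Q) with hb
    obtain ⟨ψ, hψ, hψx, hψc⟩ := (hres _ (restr F E Q c γ).2)
    have hle : (Q₀ ⊔ Subgroup.zpowers c) ≤ Q ⊔ Subgroup.zpowers c := sup_le_sup_right hQ₀ _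
    have hPS : (Q₀ ⊔ Subgroup.zpowers c) ≤ S := h.qc_le hQ₀c.1
    haveI := finite_of_le hPS
    set g := ((Q ⊔ Subgroup.zpowers c).subtype.comp (γ : LAut Q c).toMonoidHom).comp
      (Subgroup.inclusion hle) with hg
    have hgF : g ∈ F.Hom (Q₀ ⊔ Subgroup.zpowers c) := restrict_mem ((mem_autGroup_iff F (h.qc_le hQ.1)).mp γ.2.1) hle
    have hψm : ∀ z, ψ z ∈ (Q₀ ⊔ Subgroup.zpowers c) := apply_mem_of_sup ψ
      (fun x => Subgroup.mem_sup_left (by rw [hψx]; exact hchar b _ x.2))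
      (fun y => Subgroup.mem_sup_right (by rw [hψc]; exact y.2))
    have hgx : ∀ x : Q₀, g (Subgroup.inclusion le_sup_left x) =
        ((b (Subgroup.inclusion hQ₀ x) : Q) : Ω) := fun x =>
      congrArg Subtype.val (restr_isLift γ (Subgroup.inclusion hQ₀ x))
    have hgc : g (cElt Q₀ c) = c * disp (γ : LAut Q c) :=
      (mul_inv_cancel_left c _).symm
    have hgm : ∀ z, g z ∈ (Q₀ ⊔ Subgroup.zpowers c) := by
      refine apply_mem_of_sup g (fun x => Subgroup.mem_sup_left (by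
        rw [hgx]; exact hchar b _ x.2)) ?_
      rintro ⟨_, j, rfl⟩
      have e1 : Subgroup.inclusion le_sup_right (⟨c ^ j, ⟨j, rfl⟩⟩ : Subgroup.zpowers c) =
          cElt Q₀ c ^ j := Subtype.ext rfl
      rw [e1, map_zpow]
      refine zpow_mem ?_ j
      rw [hgc]
      exact mul_mem (Subgroup.mem_sup_right (Subgroup.mem_zpowers c))
        (Subgroup.mem_sup_left (hcen γ))
    obtain ⟨A, hA, hAx⟩ := exists_aut_of_hom' F hgF hgm
    obtain ⟨B, hB, hBx⟩ := exists_aut_of_hom' F hψ hψm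
    refine ⟨hcen γ, A * B⁻¹, Subgroup.mul_mem _ hA (Subgroup.inv_mem _ hB), fun x => ?_, ?_⟩
    · obtain ⟨w, hw⟩ := B.surjective (Subgroup.inclusion le_sup_left x)
      rw [MulAut.mul_apply, ← hw, MulAut.inv_apply_self]
      refine Subtype.ext ?_
      obtain ⟨x', hx'⟩ : ∃ x' : Q₀, w = Subgroup.inclusion le_sup_left x' := by
        obtain ⟨y, hy⟩ := b.surjective (Subgroup.inclusion hQ₀ x)
        have hy0 : (y : Ω) ∈ Q₀ := by
          have := hchar b⁻¹ (Subgroup.inclusion hQ₀ x) x.2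
          rwa [← hy, MulAut.inv_apply_self] at this
        refine ⟨⟨y, hy0⟩, B.injective (hw.trans (Subtype.ext ?_))⟩
        rw [hBx, hψx]
        exact (congrArg Subtype.val hy).symm
      subst hx'
      rw [hAx, hgx, hBx, hψx]
      rfl
    · have hBc : B (cElt Q₀ c) = cElt Q₀ c :=
        Subtype.ext ((hBx _).trans (hψc ⟨c, Subgroup.mem_zpowers c⟩))
      rw [MulAut.mul_apply, show B⁻¹ (cElt Q₀ c) = cElt Q₀ c from
        B.injective ((MulAut.apply_inv_self _ B _).trans hBc.symm), hAx, hgc]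
  -- lifts fixing `Q₀` lie in the Sylow subgroup
  let N : Subgroup (liftGroup F E Q c) :=
    { carrier := {γ | ∀ x : Q, (x : Ω) ∈ Q₀ → (restr F E Q c γ : MulAut Q) x = x}
      one_mem' := fun x _ => by simp
      mul_mem' := fun {γ δ} hγ hδ x hx => by
        rw [map_mul, Subgroup.coe_mul, MulAut.mul_apply, hδ x hx, hγ x hx]
      inv_mem' := fun {γ} hγ x hx => by
        rw [map_inv, Subgroup.coe_inv]
        exact (MulEquiv.symm_apply_eq _).mpr (hγ x hx).symm }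
  haveI hNn : N.Normal := ⟨fun γ hγ g x hx => by
    rw [map_mul, map_mul, map_inv]
    simp only [Subgroup.coe_mul, Subgroup.coe_inv, MulAut.mul_apply]
    rw [hγ _ (hchar _ x hx), MulAut.apply_inv_self]⟩
  have hNp : IsPGroup p N := by
    rintro ⟨γ, hγ⟩
    obtain ⟨l, hl⟩ := exists_pow_eq_one_of_fix h.tgroup hQ.1 hQ₀ hQN hC
      (restr F E Q c γ : MulAut Q) hγ
    refine ⟨l + 1, Subtype.ext ?_⟩
    show γ ^ p ^ (l + 1) = 1
    rw [pow_succ, pow_mul]
    exact pow_eq_one_of_restr_eq_one h hQc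
      (Subtype.ext (by rw [map_pow, SubmonoidClass.coe_pow, hl]; rfl))
  -- the action on possible displacements is trivial modulo the kernel
  have htriv : ∀ (γ : (liftGroup F E Q c)) (k : Ω) (hk : k ∈ dispKer F Q₀ c),
      (∀ q ∈ Q, Commute q k) →
      (((restr F E Q c γ : MulAut Q) ⟨k, hQ₀ hk.1⟩ : Q) : Ω) * k⁻¹ ∈ dispKer F Q c := by
    intro γ k hk hkc
    obtain ⟨η, hη, hη0, hηQ, hηc⟩ := exists_aut_realizing h hQ.1 hQ₀ hQN hQ₀c hk
    set b := (restr F E Q c γ : MulAut Q) with hb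
    -- the restriction of `η`
    haveI := finite_of_le hQ.1
    set ηQ : Q →* Ω := ((Q ⊔ Subgroup.zpowers c).subtype.comp η.toMonoidHom).comp (Subgroup.inclusion le_sup_left)
    have hηQF : ηQ ∈ F.Hom Q :=
      restrict_mem ((mem_autGroup_iff F (h.qc_le hQ.1)).mp hη) le_sup_left
    have hηr : ηQ.range = Q := by
      refine Subgroup.eq_of_le_of_card_ge ?_ (card_range_eq (F.injective_of_mem hηQF)).ge
      rintro _ ⟨x, rfl⟩
      exact hηQ _ x.2
    set e := isoOfHom ηQ (F.injective_of_mem hηQF) hηr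
    have hηe : ∀ x : Q, η (Subgroup.inclusion le_sup_left x) =
        Subgroup.inclusion le_sup_left (e x) := fun x => Subtype.ext rfl
    have hεG : b * MulAut.congr e b⁻¹ ∈ E.autGroup Q := Subgroup.mul_mem _ (restr F E Q c γ).2
      (congr_mem_autGroup hinv.2.2.1 (hinv.2.2.2 Q hQ.1 _ hηQF) _ hηr
        (Subgroup.inv_mem _ (restr F E Q c γ).2))
    set θ : LAut Q c := (γ : LAut Q c) * η * ((γ : LAut Q c))⁻¹ * η⁻¹ with hθ
    have hηinv : ∀ x : Q, η⁻¹ (Subgroup.inclusion le_sup_left (e x)) =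
        Subgroup.inclusion le_sup_left x := fun x => by
      rw [← hηe]
      exact MulAut.inv_apply_self _ η _
    have hγinv : ∀ x : Q, (γ : LAut Q c)⁻¹ (Subgroup.inclusion le_sup_left x) =
        Subgroup.inclusion le_sup_left (b⁻¹ x) := fun x => by
      apply (γ : LAut Q c).injective
      rw [MulAut.apply_inv_self, restr_isLift γ, ← hb, MulAut.apply_inv_self]
    have hθl : IsLift θ (b * MulAut.congr e b⁻¹) := by
      intro x
      obtain ⟨y, rfl⟩ := e.surjective x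
      rw [hθ]
      simp only [MulAut.mul_apply]
      rw [hηinv, hγinv, hηe, restr_isLift γ, ← hb, MulAut.congr_apply]
      simp only [MulEquiv.trans_apply, MulEquiv.symm_apply_apply]
    have he0 : ∀ x : Q, (x : Ω) ∈ Q₀ → e x = x := fun x hx =>
      Subtype.ext (by
        have h0 := congrArg Subtype.val (hη0 (Subgroup.inclusion le_sup_left x) hx)
        exact h0)
    have hθ0 : ∀ x : Q, (x : Ω) ∈ Q₀ → (b * MulAut.congr e b⁻¹) x = x := by
      intro x hx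
      have hes : e.symm x = x := by
        rw [MulEquiv.symm_apply_eq, he0 x hx]
      rw [MulAut.mul_apply, MulAut.congr_apply]
      simp only [MulEquiv.trans_apply, hes]
      rw [he0 _ (hchar b⁻¹ x hx), MulAut.apply_inv_self]
    -- the displacement of `θ`
    set z := disp (γ : LAut Q c)
    set bk : Ω := ((b ⟨k, hQ₀ hk.1⟩ : Q) : Ω)
    set ik : ↥(Q ⊔ Subgroup.zpowers c) := Subgroup.inclusion le_sup_left (⟨k, hQ₀ hk.1⟩ : Q)
    set iz : ↥(Q ⊔ Subgroup.zpowers c) := Subgroup.inclusion le_sup_left (⟨z, γ.2.2.1⟩ : Q)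
    have hbk0 : bk ∈ Q₀ := hchar b _ hk.1
    have hθfix : ∀ x : Q, (x : Ω) ∈ Q₀ →
        θ (Subgroup.inclusion le_sup_left x) = Subgroup.inclusion le_sup_left x := fun x hx => by
      rw [hθl, hθ0 x hx]
    have hηc' : η (cElt Q c) = cElt Q c * ik := Subtype.ext hηc
    have hγc : (γ : LAut Q c) (cElt Q c) = cElt Q c * iz := apply_cElt _ γ.2.2.1
    have hηiz : η iz = iz := hη0 _ (hcen γ)
    have h1 : θ (cElt Q c * ik * iz) =
        cElt Q c * iz * Subgroup.inclusion le_sup_left (b ⟨k, hQ₀ hk.1⟩) := by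
      have h2 : θ (η ((γ : LAut Q c) (cElt Q c))) = (γ : LAut Q c) (η (cElt Q c)) := by
        rw [hθ]
        simp only [MulAut.mul_apply, MulAut.inv_apply_self]
      rw [hγc, map_mul η, hηc', hηiz, map_mul (γ : LAut Q c), hγc, restr_isLift γ, ← hb] at h2
      exact h2
    rw [map_mul, map_mul, hθfix _ hk.1, hθfix _ (hcen γ)] at h1
    have hθc : disp θ = bk * k⁻¹ := by
      have h3 : (θ (cElt Q c) : Ω) * k * z = c * z * bk := congrArg Subtype.val h1
      have hzb : Commute bk z := disp_central h hQ.1 γ (b _).2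
      have hzk : Commute z k := hkc z γ.2.2.1
      rw [disp, inv_mul_eq_iff_eq_mul]
      calc (θ (cElt Q c) : Ω) = (θ (cElt Q c) : Ω) * k * z * (z⁻¹ * k⁻¹) := by group
        _ = c * (z * bk) * (z⁻¹ * k⁻¹) := by rw [h3, mul_assoc c]
        _ = c * (bk * z) * (z⁻¹ * k⁻¹) := by rw [hzb.eq]
        _ = c * (bk * k⁻¹) := by group
    let θH : (liftGroup F E Q c) := ⟨θ, Subgroup.mul_mem _ (Subgroup.mul_mem _ (Subgroup.mul_mem _ γ.2.1 hη)
      (Subgroup.inv_mem _ γ.2.1)) (Subgroup.inv_mem _ hη),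
      hθc.symm ▸ hQ₀ (Q₀.mul_mem hbk0 (Q₀.inv_mem hk.1)), _, hεG, hθl⟩
    have hmem : θH ∈ N := fun x hx => by
      rw [restr_eq (γ := θH) hθl, hθ0 x hx]
    have hout := disp_mem_of_induced h hQ.1 ((hR _).mp (le_sylow_of_normal hNp R hmem))
    rwa [show disp (θH : LAut Q c) = bk * k⁻¹ from hθc] at hout
  -- so the displacement is a homomorphism, trivial on the Sylow subgroup
  letI : CommGroup (Subgroup.center ↥Q) :=
    { (inferInstance : Group (Subgroup.center ↥Q)) with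
      mul_comm := fun x y => Subtype.ext (Subgroup.mem_center_iff.mp y.2 (x : Q)) }
  let KD : Subgroup (Subgroup.center ↥Q) :=
    (dispKer F Q c).comap (Q.subtype.comp (Subgroup.center ↥Q).subtype)
  let Z : (liftGroup F E Q c) → Subgroup.center ↥Q := fun γ => ⟨⟨disp (γ : LAut Q c), γ.2.2.1⟩,
    Subgroup.mem_center_iff.mpr fun q => Subtype.ext (disp_central h hQ.1 γ q.2).eq⟩
  have hZmul : ∀ γ δ : (liftGroup F E Q c), (QuotientGroup.mk (Z (γ * δ)) : _ ⧸ KD) =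
      QuotientGroup.mk (Z γ) * QuotientGroup.mk (Z δ) := by
    intro γ δ
    rw [← QuotientGroup.mk_mul, eq_comm, QuotientGroup.eq]
    show (disp (γ : LAut Q c) * disp (δ : LAut Q c))⁻¹ *
      disp ((γ * δ : (liftGroup F E Q c)) : LAut Q c) ∈ dispKer F Q c
    rw [disp_mul, mul_inv_rev, mul_assoc, inv_mul_cancel_left]
    set bk : Ω := (((restr F E Q c γ : MulAut Q) ⟨disp (δ : LAut Q c), δ.2.2.1⟩ : Q) : Ω) with hbk
    have h1 := htriv γ _ (hK₀ δ) fun q hq => disp_central h hQ.1 δ hq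
    have hcm : Commute bk (disp (δ : LAut Q c)) := disp_central h hQ.1 δ ((_ : Q)).2
    rwa [show ((restr F E Q c γ : MulAut Q) ⟨disp (δ : LAut Q c), hQ₀ (hK₀ δ).1⟩ : Q).1 = bk
      from rfl, ← hcm.inv_right.eq] at *
  let δH : (liftGroup F E Q c) →* (Subgroup.center ↥Q) ⧸ KD := MonoidHom.mk' (fun γ => QuotientGroup.mk (Z γ)) hZmul
  have hRk : (R : Subgroup (liftGroup F E Q c)) ≤ δH.ker := fun r hr => MonoidHom.mem_ker.mpr
    ((QuotientGroup.eq_one_iff _).mpr (disp_mem_of_induced h hQ.1 ((hR r).mp hr)))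
  have hrange : IsPGroup p δH.range := by
    rintro ⟨_, γ, rfl⟩
    refine ⟨1, Subtype.ext ?_⟩
    show (QuotientGroup.mk (Z γ) : _ ⧸ KD) ^ p ^ 1 = 1
    rw [pow_one, ← QuotientGroup.mk_pow, show Z γ ^ p = 1 from
      Subtype.ext (Subtype.ext (disp_pow h hQc γ (hfix γ))), QuotientGroup.mk_one]
  obtain ⟨γ, rfl⟩ := exists_lift h hQc ha
  refine fixY_of_lift h hQ.1 ?_
  have hndvd : ¬ p ∣ δH.ker.index :=
    fun hd => R.not_dvd_index (hd.trans (Subgroup.index_dvd_of_le hRk))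
  haveI : Finite δH.range := Finite.of_surjective δH.rangeRestrict δH.rangeRestrict_surjective
  obtain ⟨n, hn⟩ := IsPGroup.iff_card.mp hrange
  rw [Subgroup.index_ker, hn] at hndvd
  rcases n.eq_zero_or_pos with rfl | hn0
  · rw [pow_zero, ← Subgroup.eq_bot_iff_card] at hn
    have h1 : δH γ = 1 := Subgroup.mem_bot.mp (hn ▸ ⟨γ, rfl⟩)
    have h3 := (QuotientGroup.eq_one_iff (N := KD) (Z γ)).mp h1
    exact h3
  · exact absurd (dvd_pow_self p hn0.ne') hndvd

end CfsgLib.Alperin.NormalLift
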