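import Cfsg.Agent.Lib.Alperin.CentralizerOddBase
import Cfsg.Agent.Lib.Alperin.CentralizerOddStep

/-!
For odd `p`, a normal subsystem over `T` whose centralizer lies in `T` has `C_S(T) ≤ T`.
-/

set_option autoImplicit false
set_option linter.style.haveILetI false
set_option linter.unusedSectionVars false

namespace CfsgLib.Alperin.NormalLift

open Cfsg Cfsg.FusionSystem CfsgLib.Alperin CfsgLib.FusionSub CfsgLib.FusionBasics
open CfsgLib.FusionExamples.ControlFixed

variable {Ω : Type*} [Group Ω] {S T : Subgroup Ω} {F : FusionSystem S} {E : FusionSystem T}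
variable {p : ℕ} [Fact p.Prime] [Finite S] [Finite T] {c : Ω}

/-- Control of fixed points for the lifts: an element fixed over `J(T) C_T(J(T))` is fixed over
every subgroup. -/
theorem fixY_all (hp : p ≠ 2) (h : Setup F E p c)
    (hbase : ∀ a ∈ E.autGroup (red p T),
      FixY F (Subgroup.zpowers c) (red p T) ((red p T).subtype.comp a.toMonoidHom)) :
    ∀ (P : Subgroup Ω) (φ : P →* Ω), φ ∈ E.Hom P → FixY F (Subgroup.zpowers c) P φ := by
  have hT := h.tgroup
  have hEs := h.normal.1.1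
  have hinv := h.normal.1.2.2
  have hzfix : ∀ (P : Subgroup Ω) (φ : P →* Ω), φ ∈ E.Hom P → ∀ hz : c ^ p ∈ P,
      φ ⟨c ^ p, hz⟩ = c ^ p := by
    refine fixed hp hT hEs h.pow_mem (fun s hs => ((h.commute hs).pow_right p).eq) ?_
    intro α hα hz
    obtain ⟨ψ, -, hx, hy⟩ := hbase α hα
    refine Subtype.ext ((hx ⟨c ^ p, hz⟩).symm.trans ?_)
    exact (congrArg ψ (Subtype.ext rfl)).trans
      (hy ⟨c ^ p, pow_mem (Subgroup.mem_zpowers c) p⟩)
  suffices main : ∀ (n : ℕ) (P : Subgroup Ω), key p T T - key p T P = n →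
      ∀ φ ∈ E.Hom P, FixY F (Subgroup.zpowers c) P φ from fun P φ hφ => main _ P rfl φ hφ
  intro n
  induction n using Nat.strong_induction_on with
  | _ n ih =>
  have hmono : ∀ {P X : Subgroup Ω}, key p T T - key p T P = n → key p T P < key p T X → X ≤ T →
      ∀ ψ ∈ E.Hom X, FixY F (Subgroup.zpowers c) X ψ := by
    intro P X hP hlt hX ψ hψ
    have := (key_mono (p := p) hX le_rfl).1
    exact ih _ (by omega) X rfl ψ hψ
  -- a centralizing element outside
  have hcentralizing : ∀ Q : Subgroup Ω, E.IsFullyNormalized Q → key p T T - key p T Q = n →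
      ¬ centralizerIn T (thompsonSubgroupOf p Q) ≤ Q →
      ∀ a ∈ E.autGroup Q, FixY F (Subgroup.zpowers c) Q (Q.subtype.comp a.toMonoidHom) := by
    intro Q hQ hn hC
    have hQJ : Q ≤ Subgroup.normalizer (thompsonSubgroupOf p Q : Set Ω) :=
      Subgroup.le_normalizer.trans
        (CfsgLib.ThompsonJ.normalizer_le_normalizer_thompsonSubgroupOf p Q)
    obtain ⟨u, hu, huN, huQ⟩ := exists_normalizing_not_mem hT hQ.1 inf_le_left
      (fun x hx => normalizer_le_normalizer_centralizerIn (hQ.1 hx) (hQJ hx)) hC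
    exact fixY_of_centralizing hp hT hEs hQ hu.1 huN hu.2 fun X hQX hXN huX =>
      hmono hn (ReducedKey.key_lt_of_centralizes hQX (hXN.trans (normalizerIn_le T Q)) huX hu.2 huQ)
        (hXN.trans (normalizerIn_le T Q))
  -- reduced subgroups
  have hreduced : ∀ P : Subgroup Ω, red p P = P → key p T T - key p T P = n →
      ∀ φ ∈ E.Hom P, FixY F (Subgroup.zpowers c) P φ := by
    intro P hred hn φ hφ
    have hP := dom_le hφ
    obtain ⟨hkr, hredr⟩ := key_range (p := p) hP φ (E.injective_of_mem hφ)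
    replace hredr := hredr hred
    rcases (key_mono (p := p) hP le_rfl).1.lt_or_eq with hlt | heq
    · obtain ⟨R, hPR, hR⟩ := exists_isFullyNormalized E hP
      obtain ⟨ρ, hρ, hρr⟩ := hPR
      have hconj : E.IsConj P R := ⟨ρ, hρ, hρr⟩
      obtain ⟨hkR, hredR⟩ := key_range (p := p) hP ρ (E.injective_of_mem hρ)
      rw [hρr] at hkR hredR
      replace hredR := hredR hred
      obtain ⟨ψ₁, hψ₁, -, hm₁⟩ := exists_hom_normalizerIn_of_fullyNormalized hT hEs hR hconj
      obtain ⟨ψ₂, hψ₂, -, hm₂⟩ := exists_hom_normalizerIn_of_fullyNormalized hT hEs hR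
        (CfsgLib.Alperin.IsConj.trans (CfsgLib.Alperin.IsConj.symm (isConj_of_hom hφ)) hconj)
      have g₁ := hmono hn (key_lt_normalizerIn hT hP hred hlt) (normalizerIn_le T P) ψ₁ hψ₁
      have g₂ := hmono hn (hkr ▸ key_lt_normalizerIn hT (range_le hφ) hredr (hkr ▸ hlt))
        (normalizerIn_le T _) ψ₂ hψ₂
      set χ₁ := ψ₁.comp (Subgroup.inclusion (le_normalizerIn hP))
      set χ₂ := ψ₂.comp (Subgroup.inclusion (le_normalizerIn (range_le hφ)))
      have hχ₁ : χ₁ ∈ E.Hom P := restrict_mem hψ₁ _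
      have hχ₂ : χ₂ ∈ E.Hom φ.range := restrict_mem hψ₂ _
      have hr₁ : χ₁.range = R := (range_comp_inclusion _ _).trans hm₁
      have hr₂ : χ₂.range = R := (range_comp_inclusion _ _).trans hm₂
      obtain ⟨θ₁, hθ₁, hθ₁r, hθ₁x, -⟩ := exists_inverse hχ₁ hr₁
      obtain ⟨θ₂, hθ₂, -, hθ₂x, -⟩ := exists_inverse hχ₂ hr₂
      have mφ : ∀ x : P, φ x ∈ φ.range := fun x => ⟨x, rfl⟩
      have m₁ : ∀ y : R, θ₁ y ∈ P := fun y => hθ₁r.le ⟨y, rfl⟩
      have mu : ∀ y : R, (φ.comp (θ₁.codRestrict P m₁)) y ∈ φ.range := fun y => mφ _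
      set a := χ₂.comp ((φ.comp (θ₁.codRestrict P m₁)).codRestrict φ.range mu) with ha
      have haE : a ∈ E.Hom R := E.comp_mem (E.comp_mem hθ₁ hφ m₁) hχ₂ mu
      haveI := finite_of_le hR.1
      have ma : ∀ y : R, a y ∈ R := fun y => hr₂.le ⟨_, rfl⟩
      obtain ⟨α, hα, hαx⟩ := exists_aut_of_hom' E haE ma
      have hfixα : FixY F (Subgroup.zpowers c) R (R.subtype.comp α.toMonoidHom) := by
        by_cases hC : centralizerIn T (thompsonSubgroupOf p R) ≤ R
        · have hRc : E.IsCentric R := isCentric_of_fullyCentralized hT hEs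
            (centralized_automized_of_fullyNormalized hT hEs hR).1
            ((inf_le_inf_left T (Subgroup.centralizer_le (CfsgLib.ThompsonJ.thompsonSubgroupOf_le p R))).trans hC)
          obtain ⟨A, hA, hAR⟩ :=
            ReducedKey.exists_maxEA_not_le hT hR.1 hredR (hkR ▸ hlt) hC
          obtain ⟨U, hU, hUR, hquad⟩ := exists_quadratic (le_normalizerIn hR.1)
            (normalizerIn_le T R) inf_le_right hA hAR
          refine fixY_of_quadratic hp h hR hRc (fun γ => Subtype.ext ?_) hU.le hU.elem hquad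
            (fun X hRX hXN hUX => hmono (P := R) (hkR ▸ hn)
              (ReducedKey.key_lt_of_maxEA hRX hXN (normalizerIn_le T R) hU hUX hUR)
              (hXN.trans (normalizerIn_le T R))) α hα
          exact hzfix R _ ((mem_autGroup_iff E hR.1).mp (restr F E R c γ).2) _
        · exact hcentralizing R hR (hkR ▸ hn) hC α hα
      have ga : FixY F (Subgroup.zpowers c) R a := hfixα.congr fun y => (hαx y).symm
      have mx : ∀ x : P, χ₁ x ∈ R := fun x => hr₁.le ⟨x, rfl⟩
      have G₁ : FixY F (Subgroup.zpowers c) P χ₁ := g₁.restrict (le_normalizerIn hP) fun _ => rfl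
      have G₂ : FixY F (Subgroup.zpowers c) φ.range χ₂ :=
        g₂.restrict (le_normalizerIn (range_le hφ)) fun _ => rfl
      have Gθ₂ : FixY F (Subgroup.zpowers c) R θ₂ := G₂.inv hr₂ hθ₂x
      set v := a.comp (χ₁.codRestrict R mx)
      have hv : FixY F (Subgroup.zpowers c) P v := G₁.comp ga mx fun _ => rfl
      refine hv.comp Gθ₂ (fun x => ma _) fun x => ?_
      have e2 : v x = χ₂ ⟨φ x, mφ x⟩ := by
        show χ₂ ⟨φ ⟨θ₁ ⟨χ₁ x, mx x⟩, m₁ _⟩, _⟩ = _
        exact congrArg χ₂ (Subtype.ext (congrArg φ (Subtype.ext (hθ₁x x _))))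
      refine (hθ₂x ⟨φ x, mφ x⟩ (hr₂.le ⟨_, rfl⟩)).symm.trans (congrArg θ₂ (Subtype.ext e2.symm))
    · obtain ⟨-, hR, -⟩ := (key_mono (p := p) hP le_rfl).2 heq
      rw [hred] at hR
      have hrange : φ.range = P := by
        obtain ⟨-, hR2, -⟩ := (key_mono (p := p) (range_le hφ) le_rfl).2 (hkr.trans heq)
        rw [hredr] at hR2
        exact hR2.trans hR.symm
      obtain ⟨α, hα, hαx⟩ := exists_aut_of_hom E hφ hrange
      have key' : ∀ M : Subgroup Ω, M = red p T → ∀ α ∈ E.autGroup M,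
          FixY F (Subgroup.zpowers c) M (M.subtype.comp α.toMonoidHom) := by
        rintro M rfl α hα
        exact hbase α hα
      exact (key' P hR α hα).congr fun x => (hαx x).symm
  -- subgroups with fully normalized reduction
  have hcore : ∀ Q : Subgroup Ω, E.IsFullyNormalized Q → E.IsCentric Q →
      key p T T - key p T Q = n → E.IsFullyNormalized (red p Q) →
      ∀ a ∈ E.autGroup Q, FixY F (Subgroup.zpowers c) Q (Q.subtype.comp a.toMonoidHom) := by
    intro Q hQ hQc hn hQ₀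
    by_cases hC : centralizerIn T (thompsonSubgroupOf p Q) ≤ Q
    swap
    · exact hcentralizing Q hQ hn hC
    have hC₀ : centralizerIn T (red p Q) ≤ red p Q := fun x hx =>
      ReducedKey.centralizerIn_red_le Q
        ⟨hC ⟨hx.1, fun j hj => hx.2 j (Subgroup.mem_sup_left hj)⟩, hx.2⟩
    have hQ₀c : E.IsCentric (red p Q) := isCentric_of_fullyCentralized hT hEs
      (centralized_automized_of_fullyNormalized hT hEs hQ₀).1 hC₀
    refine fixY_of_restrict h hQ hQc (red_le Q) hQ₀c
      (fun a x hx => ReducedKey.aut_mem_red a hx) (ReducedKey.centralizerIn_red_le Q)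
      (fun γ => Subtype.ext (hzfix Q _ ((mem_autGroup_iff E hQ.1).mp (restr F E Q c γ).2) _))
      fun a ha => ?_
    obtain ⟨hk, hr⟩ := red_idem (p := p) hQ.1
    exact hreduced _ hr (hk.symm ▸ hn) _ (restrict_mem ((mem_autGroup_iff E hQ.1).mp ha) _)
  -- the induction inside the level
  intro P₁ hn₁ φ₁ hφ₁
  let Good : ∀ P : Subgroup Ω, (P →* Ω) → Prop := fun P φ =>
    key p T T - key p T P ≤ n → FixY F (Subgroup.zpowers c) P φ
  have hG : Closed E Good :=
    { restrict := fun {P Q φ} hQ hφ hg hn => by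
        have := (key_mono (p := p) hQ (dom_le hφ)).1
        exact (hg (by omega)).restrict hQ fun _ => rfl
      comp := fun {P Q φ ψ} hφ hψ hm h₁ h₂ hn => by
        have hle : φ.range ≤ Q := by
          rintro _ ⟨x, rfl⟩
          exact hm x
        have h₃ := (key_mono (p := p) hle (dom_le hψ)).1
        rw [(key_range (p := p) (dom_le hφ) φ (E.injective_of_mem hφ)).1] at h₃
        exact (h₁ hn).comp (h₂ (by omega)) hm fun _ => rfl
      inv := fun {P Q φ ψ} hφ hψ hr hψx hg hn => by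
        rw [← hr, (key_range (p := p) (dom_le hφ) φ (E.injective_of_mem hφ)).1] at hn
        exact (hg hn).inv hr hψx }
  refine closed_induction_centric hT hEs hG (fun Q hQ hQc big α hα => ?_) hφ₁ hn₁.le
  intro hQn
  have hαE := (mem_autGroup_iff E hQ.1).mp hα
  rcases hQn.lt_or_eq with hlt | hn
  · exact ih _ hlt Q rfl _ hαE
  by_cases hredQ : red p Q = Q
  · exact hreduced Q hredQ hn _ hαE
  rcases eq_or_lt_of_le hQ.1 with rfl | hQT
  · exact hcore Q hQ hQc hn (red_self_isFullyNormalized (p := p) E).1 α hα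
  -- move the reduction to a fully normalized position
  obtain ⟨R₀, hR₀c, hR₀⟩ := exists_isFullyNormalized E ((red_le (p := p) Q).trans hQ.1)
  obtain ⟨χ, hχ, -, hχm⟩ := exists_hom_normalizerIn_of_fullyNormalized hT hEs hR₀ hR₀c
  have hNN : normalizerIn T Q ≤ normalizerIn T (red p Q) := fun g hg =>
    ⟨hg.1, ReducedKey.mem_normalizer_red hg.2⟩
  have hQN : Q ≤ normalizerIn T (red p Q) := (le_normalizerIn hQ.1).trans hNN
  have hgχ : FixY F (Subgroup.zpowers c) _ χ := by
    refine big _ χ hχ ?_ ?_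
    · exact (card_lt_card (normalizerIn_le T Q) (CfsgLib.FusionSub.lt_normalizerIn hT hQT)).trans_le
        (by haveI := finite_of_le (normalizerIn_le T (red p Q)); exact Subgroup.card_le_of_le hNN)
    · have := (key_mono (p := p) hQN (normalizerIn_le T (red p Q))).1
      omega
  set χQ := χ.comp (Subgroup.inclusion hQN)
  have hχQ : χQ ∈ E.Hom Q := restrict_mem hχ hQN
  have Gχ : FixY F (Subgroup.zpowers c) Q χQ := hgχ.restrict hQN fun _ => rfl
  obtain ⟨θ, hθ, hθr, hθx, -⟩ := exists_inverse hχQ rfl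
  have hQsfn : E.IsFullyNormalized χQ.range := by
    refine ⟨range_le hχQ, fun R hR => (hQ.2 R (CfsgLib.Alperin.IsConj.trans ⟨χQ, hχQ, rfl⟩ hR)).trans ?_⟩
    exact card_le_of_maps_to (E.injective_of_mem hχ) hNN (normalizerIn_le T _) fun x hx =>
      apply_mem_normalizerIn hχ hQN (range_comp_inclusion χ hQN).symm x hx.2
  have hQsc : E.IsCentric χQ.range := isCentric_of_hom_invariant hinv hQc (hinv.1 _ hχQ)
  have hQsk : key p T T - key p T χQ.range = n := by
    rw [(key_range (p := p) hQ.1 χQ (E.injective_of_mem hχQ)).1]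
    exact hn
  have hQsr : red p χQ.range = R₀ := by
    rw [ReducedKey.red_map χQ (E.injective_of_mem hχQ), ← hχm]
    apply le_antisymm
    · rintro _ ⟨x, hx, rfl⟩
      exact ⟨Subgroup.inclusion hQN x, hx, rfl⟩
    · rintro _ ⟨x, hx, rfl⟩
      exact ⟨⟨x, red_le Q hx⟩, hx, congrArg χ (Subtype.ext rfl)⟩
  set e := isoOfHom χQ (E.injective_of_mem hχQ) rfl
  have hα' : MulAut.congr e α ∈ E.autGroup χQ.range :=
    (autGroup_map_congr hχQ rfl).le ⟨α, hα, rfl⟩
  have Gα' := hcore _ hQsfn hQsc hQsk (hQsr ▸ hR₀) _ hα'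
  have mχ : ∀ x : Q, χQ x ∈ χQ.range := fun x => ⟨x, rfl⟩
  have Gv : FixY F (Subgroup.zpowers c) Q
      ((χQ.range.subtype.comp (MulAut.congr e α).toMonoidHom).comp (χQ.codRestrict _ mχ)) :=
    Gχ.comp Gα' mχ fun _ => rfl
  refine Gv.comp (Gχ.inv rfl hθx) (fun x => ((MulAut.congr e α) _).2) fun x => ?_
  refine (hθx (α x) ⟨α x, rfl⟩).symm.trans (congrArg θ (Subtype.ext ?_))
  show χQ (α x) = ((MulAut.congr e α (e x) : χQ.range) : Ω)
  rw [MulAut.congr_apply]
  simp only [MulEquiv.trans_apply, MulEquiv.symm_apply_apply]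
  rfl

/-- For odd `p`, the centralizer of `T` lies in `T`. -/
theorem centralizerIn_le_of_odd (hp : p ≠ 2) (hS : IsPGroup p S) (hE : E.IsNormalIn F p)
    (hCE : ∀ Y : Subgroup Ω, Y ≤ centralizerIn S T →
      (∀ C : FusionSystem (centralizerIn S Y), F.IsCentralizerSystem Y C → E.IsSubsystemOf C) →
      Y ≤ T) :
    centralizerIn S T ≤ T := by
  intro c₀ hc₀
  by_contra hnot
  obtain ⟨n, hn⟩ := hS ⟨c₀, hc₀.1⟩
  have hn' : c₀ ^ p ^ n ∈ T := by
    have h1 : c₀ ^ p ^ n = 1 := congrArg Subtype.val hn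
    rw [h1]
    exact T.one_mem
  -- an element outside with `p`-th power inside
  obtain ⟨c, hc, hcT, hcp⟩ : ∃ c, c ∈ centralizerIn S T ∧ c ∉ T ∧ c ^ p ∈ T := by
    clear hn
    induction n with
    | zero => rw [pow_zero, pow_one] at hn'; exact absurd hn' hnot
    | succ n ihn =>
      by_cases hm : c₀ ^ p ^ n ∈ T
      · exact ihn hm
      · exact ⟨_, pow_mem hc₀ _, hm, by rwa [← pow_mul, ← pow_succ]⟩
  obtain ⟨c', hc', hbase⟩ := exists_fixed_base (F := F) (E := E) ⟨hS, hE, hc, hcp, hcT⟩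
  exact hc'.not_mem (le_of_fixY hE.1.2.2 hc'.zpowers_le_centralizer hCE (fixY_all hp hc' hbase)
    (Subgroup.mem_zpowers c'))

end CfsgLib.Alperin.NormalLift
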