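import Cfsg.Agent.Lib.Alperin.LiftGroup
import Cfsg.Agent.Lib.Alperin.ReducedKey

/-!
A `T`-equivariant transfer over the lifts of `Aut_E(M)`, `M = J(T) C_T(J(T))`: an element of
`C_S(T)` outside `T` is changed to one that is fixed by a lift of every such automorphism.
-/

set_option autoImplicit false
set_option linter.style.haveILetI false
set_option linter.unusedSectionVars false

namespace CfsgLib.Alperin.NormalLift

open Cfsg Cfsg.FusionSystem CfsgLib.Alperin CfsgLib.FusionSub CfsgLib.FusionBasics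
open CfsgLib.FusionExamples.ControlFixed

variable {Ω : Type*} [Group Ω] {S T : Subgroup Ω} {F : FusionSystem S} {E : FusionSystem T}
variable {p : ℕ} [Fact p.Prime] [Finite S] [Finite T] {Q : Subgroup Ω} {c : Ω}

/-- A lift whose displacement commutes with everything in `T` that its inverse transports. -/
theorem exists_lift_fixed (h : Setup F E p c) (hQ : E.IsFullyNormalized Q) (hQc : E.IsCentric Q)
    {a : MulAut Q} (ha : a ∈ E.autGroup Q) :
    ∃ γ : liftGroup F E Q c, (restr F E Q c γ : MulAut Q) = a ∧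
      ∀ s ∈ T, ∀ hs : s ∈ Subgroup.normalizer (Q : Set Ω),
        a⁻¹ * conjAut Q s hs * a ∈ autInducedBy T Q → Commute s (disp (γ : LAut Q c)) := by
  have hinv := h.normal.1.2.2
  have ha' := (mem_autGroup_iff E hQ.1).mp (Subgroup.inv_mem _ ha)
  set P := extender T Q (Q.subtype.comp (a⁻¹ : MulAut Q).toMonoidHom)
  obtain ⟨e, he, hex⟩ : ∃ e ∈ E.Hom P, ∀ (x : Ω) (hP : x ∈ Q) (hN : x ∈ P),
      e ⟨x, hN⟩ = ((((a⁻¹ : MulAut Q) ⟨x, hP⟩ : Q)) : Ω) :=
    (receptive_of_fullyNormalized h.tgroup h.normal.1.1 hQ).2 Q _ ha' (range_subtype_comp_aut _)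
  have hQP : Q ≤ P := le_extender ha'
  obtain ⟨θ, hθ, hθr, hθx, -⟩ := exists_inverse he rfl
  have hQe : Q ≤ e.range := by
    intro y hy
    refine ⟨⟨a ⟨y, hy⟩, hQP (a _).2⟩, (hex _ (a _).2 _).trans ?_⟩
    show (((a⁻¹ : MulAut Q) (a ⟨y, hy⟩) : Q) : Ω) = y
    rw [MulAut.inv_apply_self]
  have hec : E.IsCentric e.range :=
    CfsgLib.FusionExamples.isCentric_of_ge hQc hQe (range_le he)
  obtain ⟨ψ, hψ, hψx, hψc⟩ := goodExt_of_mem h.pgroup h.normal hθ hec
  rw [hθr] at hψc
  have hle : Q ⊔ Subgroup.zpowers c ≤ e.range ⊔ centralizerIn S T :=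
    sup_le_sup hQe h.zpowers_le_centralizer
  set χ := ψ.comp (Subgroup.inclusion hle)
  have hχQ : ∀ x : Q, χ (Subgroup.inclusion le_sup_left x) = ((a x : Q) : Ω) := by
    intro x
    have e1 : e ⟨((a x : Q) : Ω), hQP (a x).2⟩ = (x : Ω) := by
      refine (hex _ (a x).2 _).trans ?_
      show (((a⁻¹ : MulAut Q) (a x) : Q) : Ω) = x
      rw [MulAut.inv_apply_self]
    refine Eq.trans (hψx ⟨x, hQe x.2⟩) ?_
    refine Eq.trans (congrArg θ (Subtype.ext e1.symm))
      (hθx ⟨((a x : Q) : Ω), hQP (a x).2⟩ ⟨_, rfl⟩)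
  set w := c⁻¹ * χ (cElt Q c) with hw
  have hwP : w ∈ P := hψc ⟨c, h.mem⟩
  have hPT : P ≤ T := extender_le Q _
  have hwcen : ∀ s ∈ P, Commute s w := by
    intro s hs
    set y : e.range := ⟨e ⟨s, hs⟩, _, rfl⟩
    have h1 : ψ (Subgroup.inclusion le_sup_left y) = s := (hψx y).trans (hθx ⟨s, hs⟩ _)
    have h2 : s * χ (cElt Q c) = χ (cElt Q c) * s := by
      conv_lhs => rw [← h1]
      conv_rhs => rw [← h1]
      show _ * ψ _ = ψ _ * _
      rw [← map_mul, ← map_mul]
      exact congrArg ψ (Subtype.ext (h.commute (range_le he y.2)).eq)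
    exact (h.commute (hPT hs)).inv_right.mul_right h2
  have hwQ : w ∈ Q := hQc.2 Q (isConj_refl E hQc.1)
    ⟨hPT hwP, fun q hq => hwcen q (hQP hq)⟩
  have hm : ∀ z, χ z ∈ Q ⊔ Subgroup.zpowers c := by
    refine apply_mem_of_sup χ (fun x => Subgroup.mem_sup_left (hχQ x ▸ (a x).2)) ?_
    rintro ⟨_, j, rfl⟩
    have e2 : Subgroup.inclusion le_sup_right (⟨c ^ j, ⟨j, rfl⟩⟩ : Subgroup.zpowers c) =
        cElt Q c ^ j := Subtype.ext rfl
    rw [e2, map_zpow]
    refine zpow_mem ?_ j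
    have := mul_mem (Subgroup.mem_sup_right (S := Q) (Subgroup.mem_zpowers c))
      (Subgroup.mem_sup_left hwQ)
    rwa [hw, mul_inv_cancel_left] at this
  haveI := finite_of_le (h.qc_le hQ.1)
  obtain ⟨γ, hγ, hγx⟩ := exists_aut_of_hom' F (restrict_mem hψ hle) hm
  have hd : disp γ = w := by rw [disp, hγx, hw]
  have hl : IsLift γ a := fun x => Subtype.ext ((hγx _).trans (hχQ x))
  refine ⟨⟨γ, hγ, hd.symm ▸ hwQ, a, ha, hl⟩, restr_eq hl, fun s hsT hs hmem => ?_⟩
  rw [show disp (γ : LAut Q c) = w from hd]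
  refine hwcen s (mem_extender_iff.mpr ⟨hsT, hs, ?_⟩)
  obtain ⟨u, hu, hux⟩ := mem_autInducedBy_iff.mp hmem
  refine ⟨u, hu, fun x hx => ?_⟩
  have := hux ((a⁻¹ : MulAut Q) x)
  simp only [MulAut.mul_apply, MulAut.apply_inv_self] at this
  exact this

/-- A transfer over coset representatives compatible with the action of `T`. -/
theorem exists_equivariant_displacement (h : Setup F E p c) (hQ : E.IsFullyNormalized Q)
    (hQc : E.IsCentric Q) (hTQ : T ≤ Subgroup.normalizer (Q : Set Ω)) :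
    ∃ (d : ℕ) (w : Ω) (hw : w ∈ Q), d.Coprime p ∧ (∀ t ∈ T, Commute t w) ∧
      ∀ γ : liftGroup F E Q c,
        disp (γ : LAut Q c) ^ d * ((restr F E Q c γ : MulAut Q) ⟨w, hw⟩ : Q) * w⁻¹ ∈
          dispKer F Q c := by
  classical
  haveI := finite_liftGroup h hQ.1
  set H := liftGroup F E Q c
  obtain ⟨R, hR⟩ : ∃ R : Sylow p H, ∀ γ : H,
      γ ∈ R ↔ (restr F E Q c γ : MulAut Q) ∈ autInducedBy T Q := exists_sylow_lift h hQ hQc
  set X := H ⧸ (R : Subgroup H)
  haveI : Fintype X := Fintype.ofFinite _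
  -- the action of `T`
  have hconj := fun t : T => exists_conjLift h hQ.1 t.2 (hTQ t.2)
  choose τ hτr hτd hτx using hconj
  have hτmul : ∀ s t : T, τ (s * t) = τ s * τ t := fun s t => Subtype.ext (MulEquiv.ext fun z =>
    Subtype.ext (by
      show ((τ (s * t) : LAut Q c) z : Ω) = ((τ s : LAut Q c) ((τ t : LAut Q c) z) : Ω)
      rw [hτx, hτx, hτx, Subgroup.coe_mul]
      group))
  let τh : T →* H :=
    { toFun := τ
      map_one' := by
        have := hτmul 1 1
        rwa [mul_one, left_eq_mul] at this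
      map_mul' := hτmul }
  letI : MulAction T X := MulAction.compHom X τh
  have hsmul : ∀ (t : T) (x : X), t • x = τ t • x := fun _ _ => rfl
  -- representatives
  have hrep := fun x : X => exists_lift_fixed h hQ hQc (restr F E Q c x.out).2
  choose f hfr hff using hrep
  have hfx : ∀ x : X, QuotientGroup.mk (f x) = x := by
    intro x
    conv_rhs => rw [← QuotientGroup.out_eq' x]
    refine QuotientGroup.eq.mpr ((hR _).mpr ?_)
    rw [map_mul, map_inv, Subtype.ext (hfr x), inv_mul_cancel]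
    exact Subgroup.one_mem _
  set q0 : X → X := fun x => (Quotient.mk (MulAction.orbitRel T X) x).out
  have hmem : ∀ x : X, ∃ t : T, t • q0 x = x := by
    intro x
    have hxx : (MulAction.orbitRel T X).r x (q0 x) :=
      (MulAction.orbitRel T X).symm (Quotient.exact (Quotient.out_eq _))
    exact hxx
  choose tx htx using hmem
  set z : X → H := fun x => τ (tx x) * f (q0 x) with hz
  have hzx : ∀ x, QuotientGroup.mk (z x) = x := by
    intro x
    conv_rhs => rw [← htx x, hsmul, ← hfx (q0 x)]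
    rfl
  have hzd : ∀ x, disp (z x : LAut Q c) =
      (tx x : Ω) * disp (f (q0 x) : LAut Q c) * (tx x : Ω)⁻¹ := by
    intro x
    rw [hz, disp_mul, hτd, one_mul, hτr]
    rfl
  have hstab : ∀ (x : X) (u : T), u • x = x → Commute (u : Ω) (disp (f x : LAut Q c)) := by
    intro x u hu
    refine hff x u u.2 (hTQ u.2) ?_
    rw [hsmul] at hu
    conv_lhs at hu => rw [← QuotientGroup.out_eq' x]
    conv_rhs at hu => rw [← QuotientGroup.out_eq' x]
    have h2 : x.out⁻¹ * τ u * x.out ∈ (R : Subgroup H) := by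
      rw [mul_assoc]
      exact QuotientGroup.eq.mp hu.symm
    have h3 := (hR _).mp h2
    rw [map_mul, map_mul, map_inv] at h3
    simp only [Subgroup.coe_mul, Subgroup.coe_inv, hτr] at h3
    exact h3
  have hequiv : ∀ (t : T) (x : X),
      disp (z (t • x) : LAut Q c) = (t : Ω) * disp (z x : LAut Q c) * (t : Ω)⁻¹ := by
    intro t x
    have hq : q0 (t • x) = q0 x := congrArg Quotient.out (Quotient.sound ⟨t, rfl⟩)
    have hu : ((tx (t • x))⁻¹ * (t * tx x)) • q0 x = q0 x := by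
      rw [mul_smul, mul_smul, htx x, inv_smul_eq_iff]
      exact (hq ▸ htx (t • x)).symm
    have hc := hstab _ _ hu
    rw [hzd, hzd, hq]
    set a : Ω := disp (f (q0 x) : LAut Q c)
    simp only [Subgroup.coe_mul, Subgroup.coe_inv] at hc
    calc (tx (t • x) : Ω) * a * (tx (t • x) : Ω)⁻¹
        = (tx (t • x) : Ω) * (a * ((tx (t • x) : Ω)⁻¹ * ((t : Ω) * tx x))) *
            ((t : Ω) * tx x)⁻¹ := by group
      _ = (tx (t • x) : Ω) * (((tx (t • x) : Ω)⁻¹ * ((t : Ω) * tx x)) * a) *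
            ((t : Ω) * tx x)⁻¹ := by rw [hc.symm.eq]
      _ = (t : Ω) * ((tx x : Ω) * a * (tx x : Ω)⁻¹) * (t : Ω)⁻¹ := by group
  -- the centre of `Q`
  letI : CommGroup (Subgroup.center ↥Q) :=
    { (inferInstance : Group (Subgroup.center ↥Q)) with
      mul_comm := fun a b => Subtype.ext (Subgroup.mem_center_iff.mp b.2 (a : Q)) }
  let Z : H → Subgroup.center ↥Q := fun γ => ⟨⟨disp (γ : LAut Q c), γ.2.2.1⟩,
    Subgroup.mem_center_iff.mpr fun q => Subtype.ext (disp_central h hQ.1 γ q.2).eq⟩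
  set ρ := centreRestr Q (E.autGroup Q) with hρ
  let KD : Subgroup (Subgroup.center ↥Q) :=
    (dispKer F Q c).comap (Q.subtype.comp (Subgroup.center ↥Q).subtype)
  set w : Subgroup.center ↥Q := ∏ x : X, Z (z x) with hw
  refine ⟨Nat.card X, ((w : Q) : Ω), (w : Q).2, ?_, fun t ht => ?_, fun γ => ?_⟩
  · rw [Nat.coprime_comm, (Fact.out : p.Prime).coprime_iff_not_dvd]
    exact R.not_dvd_index
  · have hfix : ρ (restr F E Q c (τ ⟨t, ht⟩)) w = w := by
      rw [hw, map_prod]
      refine Fintype.prod_equiv (MulAction.toPerm (⟨t, ht⟩ : T)) _ _ fun x => ?_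
      refine Subtype.ext (Subtype.ext ?_)
      rw [hρ, centreRestr_apply, hτr]
      exact (hequiv ⟨t, ht⟩ x).symm
    have h1 : t * ((w : Q) : Ω) * t⁻¹ = ((w : Q) : Ω) := by
      have := congrArg (fun v : Subgroup.center ↥Q => ((v : Q) : Ω)) hfix
      rwa [hρ, centreRestr_apply, hτr] at this
    exact mul_inv_eq_iff_eq_mul.mp h1
  · have key : ∀ x : X, Z γ * ρ (restr F E Q c γ) (Z (z x)) * (Z (z (γ • x)))⁻¹ ∈ KD := by
      intro x
      obtain ⟨r, hr, e⟩ : ∃ r ∈ (R : Subgroup H), γ * z x = z (γ • x) * r := by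
        refine ⟨(z (γ • x))⁻¹ * (γ * z x), ?_, (mul_inv_cancel_left _ _).symm⟩
        rw [← QuotientGroup.eq, hzx]
        conv_lhs => rw [← hzx x]
        rfl
      have e1 := congrArg (fun u : H => disp (u : LAut Q c)) e
      replace e1 := (disp_mul γ (z x)).symm.trans (e1.trans (disp_mul (z (γ • x)) r))
      show disp (γ : LAut Q c) * ((restr F E Q c γ : MulAut Q) ⟨disp (z x : LAut Q c), _⟩ : Q) *
        (disp (z (γ • x) : LAut Q c))⁻¹ ∈ dispKer F Q c
      rw [e1]
      have hk := restr_apply_mem_dispKer h hQ.1 (z (γ • x))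
        (disp_mem_of_induced h hQ.1 ((hR r).mp hr))
      set k : Ω := (((restr F E Q c (z (γ • x)) : MulAut Q) ⟨disp (r : LAut Q c), _⟩ : Q) : Ω)
      rw [(dispKer_commute h hQ.1 hk (z (γ • x)).2.2.1).eq, mul_inv_cancel_right]
      exact hk
    have h2 : ∏ x : X, Z γ * ρ (restr F E Q c γ) (Z (z x)) * (Z (z (γ • x)))⁻¹ ∈ KD :=
      Subgroup.prod_mem KD fun x _ => key x
    rw [Finset.prod_mul_distrib, Finset.prod_mul_distrib, Finset.prod_const, Finset.card_univ,
      ← Nat.card_eq_fintype_card, ← map_prod, Finset.prod_inv_distrib,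
      Fintype.prod_equiv (MulAction.toPerm γ) (fun x => Z (z (γ • x))) (fun x => Z (z x))
        (fun _ => rfl), ← hw] at h2
    exact h2

/-- From an element of `C_S(T)` outside `T` one gets an element with the same property that some
lift of each automorphism of `J(T) C_T(J(T))` in `E` fixes. -/
theorem exists_fixed_base (h : Setup F E p c) :
    ∃ c' : Ω, Setup F E p c' ∧ ∀ a ∈ E.autGroup (red p T),
      FixY F (Subgroup.zpowers c') (red p T) ((red p T).subtype.comp a.toMonoidHom) := by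
  obtain ⟨hM, hCM, hTM⟩ := red_self_isFullyNormalized (p := p) E
  set M := red p T
  have hMc : E.IsCentric M := isCentric_of_fullyCentralized h.tgroup h.normal.1.1
    (centralized_automized_of_fullyNormalized h.tgroup h.normal.1.1 hM).1 hCM
  obtain ⟨d, w, hwM, hd, hwT, hkey⟩ := exists_equivariant_displacement h hM hMc hTM
  obtain ⟨u, v, huv⟩ : ∃ u v : ℤ, (d : ℤ) * u + p * v = 1 := by
    refine ⟨Nat.gcdA d p, Nat.gcdB d p, ?_⟩
    rw [← Nat.gcd_eq_gcd_ab, Nat.coprime_iff_gcd_eq_one.mp hd]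
    rfl
  set c' := c ^ d * w with hc'
  have hwS : w ∈ S := h.le (hM.1 hwM)
  have hc'C : c' ∈ centralizerIn S T :=
    ⟨S.mul_mem (S.pow_mem h.mem.1 d) hwS, fun t ht =>
      (((h.commute ht).pow_right d).mul_right (hwT t ht)).eq⟩
  have hcw : Commute (c ^ d) w := ((h.commute (hM.1 hwM)).pow_right d).symm
  have hset : Setup F E p c' := ⟨h.pgroup, h.normal, hc'C, by
    rw [hc', hcw.mul_pow, ← pow_mul, mul_comm d p, pow_mul]
    exact T.mul_mem (T.pow_mem h.pow_mem d) (T.pow_mem (hM.1 hwM) p), fun hmem => h.not_mem (by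
    have h1 : c ^ d ∈ T := by
      have := T.mul_mem hmem (T.inv_mem (hM.1 hwM))
      rwa [hc', mul_inv_cancel_right] at this
    have h2 := T.mul_mem (T.zpow_mem h1 u) (T.zpow_mem h.pow_mem v)
    rwa [← zpow_natCast, ← zpow_natCast, ← zpow_mul, ← zpow_mul, ← zpow_add, huv, zpow_one] at h2)⟩
  refine ⟨c', hset, fun a ha => ?_⟩
  obtain ⟨γ, rfl⟩ := exists_lift h hMc ha
  set z := disp (γ : LAut M c)
  set aw : Ω := (((restr F E M c γ : MulAut M) ⟨w, hwM⟩ : M) : Ω)
  set k := z ^ d * aw * w⁻¹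
  have hk : k ∈ dispKer F M c := hkey γ
  obtain ⟨μ, hμ, hμd⟩ := exists_lift_of_dispKer E ((dispKer F M c).zpow_mem hk u)
  set δ := μ⁻¹ * γ
  have hδr : restr F E M c δ = restr F E M c γ := by rw [map_mul, map_inv, hμ, inv_one, one_mul]
  have hδd : disp (δ : LAut M c) = (k ^ u)⁻¹ * z := by
    have h2 := congrArg (fun x : liftGroup F E M c => disp (x : LAut M c))
      (show μ * δ = γ from mul_inv_cancel_left μ γ)
    rw [disp_mul_of_restr_eq_one hμ, hμd] at h2
    rw [eq_inv_mul_iff_mul_eq]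
    exact h2
  have hle : M ⊔ Subgroup.zpowers c' ≤ M ⊔ Subgroup.zpowers c :=
    sup_le le_sup_left (Subgroup.zpowers_le.mpr (mul_mem
      (Subgroup.mem_sup_right (Subgroup.pow_mem _ (Subgroup.mem_zpowers c) d))
      (Subgroup.mem_sup_left hwM)))
  refine ⟨_, restrict_mem ((mem_autGroup_iff F (h.qc_le hM.1)).mp δ.2.1) hle, fun x => ?_, ?_⟩
  · show (((δ : LAut M c) (Subgroup.inclusion le_sup_left x)) : Ω) = _
    rw [restr_isLift δ, hδr]
    rfl
  rintro ⟨_, j, rfl⟩
  have e : Subgroup.inclusion le_sup_right (⟨c' ^ j, ⟨j, rfl⟩⟩ : Subgroup.zpowers c') =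
      cElt M c' ^ j := Subtype.ext rfl
  rw [e, map_zpow]
  refine congrArg (· ^ j) ?_
  show ((δ : LAut M c) (Subgroup.inclusion hle (cElt M c')) : Ω) = c'
  have e1 : Subgroup.inclusion hle (cElt M c') =
      cElt M c ^ d * Subgroup.inclusion le_sup_left (⟨w, hwM⟩ : M) :=
    Subtype.ext rfl
  rw [e1, map_mul, map_pow, restr_isLift δ, hδr]
  show ((δ : LAut M c) (cElt M c) : Ω) ^ d * aw = c ^ d * w
  have hy : ((δ : LAut M c) (cElt M c) : Ω) = c * disp (δ : LAut M c) :=
    (mul_inv_cancel_left c _).symm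
  have hkM : (k ^ u)⁻¹ ∈ M := M.inv_mem (M.zpow_mem hk.1 u)
  have hzM : z ∈ M := γ.2.2.1
  rw [hy, hδd, (h.commute (hM.1 (M.mul_mem hkM hzM))).symm.mul_pow,
    (disp_central h hM.1 γ hkM).mul_pow, mul_assoc, mul_assoc]
  congr 1
  have hku : ((k ^ u)⁻¹) ^ d = k⁻¹ := by
    have hkp : k ^ (p : ℤ) = 1 := by rw [zpow_natCast]; exact dispKer_pow h hMc hk
    rw [inv_pow, ← zpow_natCast, ← zpow_mul, mul_comm, show (d : ℤ) * u = 1 - p * v by omega,
      zpow_sub, zpow_mul, hkp, one_zpow, inv_one, mul_one, zpow_one]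
  rw [hku]
  show (z ^ d * aw * w⁻¹)⁻¹ * (z ^ d * aw) = w
  group

end CfsgLib.Alperin.NormalLift
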