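import Cfsg.Agent.Lib.Alperin.SystemImageComponent

/-!
The layer of a fusion system is invariant under automorphisms of the system.
-/

set_option autoImplicit false
set_option linter.style.haveILetI false
set_option linter.unusedSectionVars false

namespace CfsgLib.Alperin

open Cfsg Cfsg.FusionSystem CfsgLib.FusionBasics

variable {Ω : Type*} [Group Ω] {S : Subgroup Ω} [Finite S] {F : FusionSystem S} {p : ℕ}
  [Fact p.Prime]

theorem layer_le_image {T : Subgroup Ω} {E : FusionSystem T} (hE : E.IsLayerOf F p)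
    {f κ : S →* Ω} (hf : SystemIso F F f) (hκ : SystemIso F F κ)
    (hfk : ∀ (s : S) (hs : κ s ∈ S), f ⟨κ s, hs⟩ = (s : Ω)) :
    ∃ hT : T ≤ S, ∃ (T' : Subgroup Ω) (E' : FusionSystem T'),
      SystemIso E E' (f.comp (Subgroup.inclusion hT)) ∧ T ≤ T' ∧ E.IsSubsystemOf E' := by
  obtain ⟨hEn, hcomp, hmin⟩ := hE
  have hT : T ≤ S := hEn.1.2.2.2.1.1
  haveI := finite_of_le hT
  obtain ⟨E', hE'⟩ := exists_image E (ι := f.comp (Subgroup.inclusion hT))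
    (hf.inj.comp (Subgroup.inclusion_injective hT)) rfl
  have hsub : E.IsSubsystemOf E' := by
    refine hmin _ E' (iso_isNormalIn hf hT hE' hEn) fun U C hC P φ hφ => ?_
    obtain ⟨hU, hsubn⟩ := subnormal_iso hC.1 F κ hκ
    haveI := finite_of_le hU
    obtain ⟨C₀, hC₀⟩ := exists_image C (ι := κ.comp (Subgroup.inclusion hU))
      (hκ.inj.comp (Subgroup.inclusion_injective hU)) rfl
    obtain ⟨φ₀, hφ₀, hx⟩ := sub_fwd hC₀ hφ
    have hφ₀E := hcomp _ C₀ ⟨hsubn C₀ hC₀, iso_quasisimple hC₀ hC.2⟩ _ hφ₀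
    obtain ⟨ψ, hψ, hy⟩ := sub_fwd hE' hφ₀E
    have hle : P ≤ img f (img κ P) := fun x hx => by
      have hxS : x ∈ S := hU (dom_le hφ hx)
      exact ⟨⟨κ ⟨x, hxS⟩, hκ.range_eq.le ⟨_, rfl⟩⟩, ⟨⟨x, hxS⟩, hx, rfl⟩, hfk ⟨x, hxS⟩ _⟩
    refine mem_of_apply_eq (restrict_mem hψ hle) fun x => ?_
    have hxS : (x : Ω) ∈ S := hU (dom_le hφ x.2)
    have hm : κ ⟨x, hxS⟩ ∈ img κ P := ⟨⟨x, hxS⟩, x.2, rfl⟩
    have hm' : f ⟨κ ⟨x, hxS⟩, hκ.range_eq.le ⟨_, rfl⟩⟩ ∈ img f (img κ P) := ⟨_, hm, rfl⟩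
    symm
    refine (congrArg ψ (a₂ := ⟨_, hm'⟩) (Subtype.ext (hfk ⟨x, hxS⟩ _).symm)).trans
      ((hy _ hm hm').trans ?_)
    exact (congrArg f (Subtype.ext (hx ⟨x, hxS⟩ x.2 hm))).trans
      (hfk ⟨φ x, hU (apply_mem hφ x)⟩ (hκ.range_eq.le ⟨_, rfl⟩))
  exact ⟨hT, _, E', hE', dom_le (hsub T (incl_mem E le_rfl)), hsub⟩

theorem layer_characteristic {T : Subgroup Ω} {E : FusionSystem T} (hE : E.IsLayerOf F p)
    (α : S ≃* S) (hα : F.IsMorphism F (S.subtype.comp α.toMonoidHom))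
    (hα' : F.IsMorphism F (S.subtype.comp α.symm.toMonoidHom)) :
    imageAlong (S.subtype.comp α.toMonoidHom) T = T ∧
      ∀ (P : Subgroup Ω) (φ : P →* Ω), φ ∈ E.Hom P →
        ∀ φ' : ↥(imageAlong (S.subtype.comp α.toMonoidHom) P) →* Ω,
          InducedAlong (S.subtype.comp α.toMonoidHom) φ φ' →
            φ' ∈ E.Hom (imageAlong (S.subtype.comp α.toMonoidHom) P) := by
  set f := S.subtype.comp α.toMonoidHom with hfdef
  set κ := S.subtype.comp α.symm.toMonoidHom with hκdef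
  have hfk : ∀ (s : S) (hs : κ s ∈ S), f ⟨κ s, hs⟩ = (s : Ω) := fun s hs =>
    congrArg Subtype.val (α.apply_symm_apply s)
  have hkf : ∀ (s : S) (hs : f s ∈ S), κ ⟨f s, hs⟩ = (s : Ω) := fun s hs =>
    congrArg Subtype.val (α.symm_apply_apply s)
  have hfinj : Function.Injective f := S.subtype_injective.comp α.injective
  have hfr : f.range = S := le_antisymm (by rintro _ ⟨x, rfl⟩; exact (α x).2)
    fun y hy => ⟨α.symm ⟨y, hy⟩, congrArg Subtype.val (α.apply_symm_apply ⟨y, hy⟩)⟩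
  have hf : SystemIso F F f := by
    refine ⟨hfinj, hfr, fun {P} φ hφ => ?_, fun {P} hP φ' hφ' => ?_⟩
    · obtain ⟨φ', hφ', _, _, _, hx⟩ := hα.2 P φ hφ
      exact ⟨φ', hφ', hx⟩
    · obtain ⟨φ'', hφ'', _, _, _, hx⟩ := hα'.2 _ φ' hφ'
      have hle : P ≤ imageAlong κ (img f P) := fun x hx =>
        ⟨⟨f ⟨x, hP hx⟩, (α _).2⟩, ⟨⟨x, hP hx⟩, hx, rfl⟩, hkf ⟨x, hP hx⟩ _⟩
      refine ⟨_, restrict_mem hφ'' hle, fun x hφx => ?_⟩
      have h1 : (φ''.comp (Subgroup.inclusion hle)) x =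
          κ ⟨φ' (imgEquiv f hfinj hP x), apply_mem hφ' _⟩ := by
        refine Eq.trans (congrArg φ'' (Subtype.ext ?_)) (hx (imgEquiv f hfinj hP x))
        exact (hkf ⟨x, hP x.2⟩ _).symm
      exact (hfk ⟨_, apply_mem hφ' (imgEquiv f hfinj hP x)⟩ (α.symm _).2).symm.trans
        (congrArg f (a₂ := ⟨_, hφx⟩) (Subtype.ext h1.symm))
  obtain ⟨κ', hκ', hκf, -⟩ := iso_symm hf
  have hκe : κ' = κ := MonoidHom.ext fun s => by
    obtain ⟨t, ht⟩ := hfr.ge s.2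
    obtain ⟨s, hs⟩ := s
    subst ht
    exact (hκf t hs).trans (hkf t hs).symm
  subst hκe
  obtain ⟨hT, T₁, E₁, hE₁, hT₁, -⟩ := layer_le_image hE hf hκ' hfk
  obtain ⟨_, T₂, E₂, hE₂, hT₂, hsub⟩ := layer_le_image hE hκ' hf hkf
  have h1 : img f T = T₁ := (sub_img hE₁).symm
  have h2 : img κ T = T₂ := (sub_img hE₂).symm
  refine ⟨le_antisymm ?_ (hT₁.trans h1.ge), fun P φ hφ φ' hind => ?_⟩
  · rintro _ ⟨x, hx, rfl⟩
    obtain ⟨t, ht, hte⟩ := (hT₂.trans h2.ge) hx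
    exact (congrArg f (Subtype.ext hte.symm)).trans (hfk t (hte ▸ x.2)) ▸ ht
  · obtain ⟨hP, hφS, hPP, hind⟩ := hind
    obtain ⟨χ, hχ, hy⟩ := sub_bwd hE₂
      (show img f P ≤ T from fun z hz => by
        obtain ⟨x, hx, rfl⟩ := hz
        obtain ⟨t, ht, hte⟩ := (hT₂.trans h2.ge) (dom_le hφ hx)
        exact (congrArg f (Subtype.ext hte.symm)).trans (hfk t (hte ▸ x.2)) ▸ ht)
      (restrict_mem (hsub P hφ) (show img κ (img f P) ≤ P from fun z hz => by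
        obtain ⟨⟨_, hw⟩, ⟨x, hx, rfl⟩, rfl⟩ := hz
        exact (hkf x hw).symm ▸ hx))
    refine mem_of_apply_eq hχ fun z => ?_
    obtain ⟨_, ⟨x, hx, rfl⟩⟩ := z
    have hxS : f x ∈ S := (α x).2
    have hχS : χ ⟨f x, ⟨x, hx, rfl⟩⟩ ∈ S := hT (apply_mem hχ _)
    have h3 := hy ⟨f x, hxS⟩ ⟨x, hx, rfl⟩ hχS ⟨⟨f x, hxS⟩, ⟨x, hx, rfl⟩, rfl⟩
    refine (hind ⟨x, hx⟩).trans (Eq.trans ?_ (hfk ⟨_, hχS⟩ (α.symm _).2))
    refine congrArg f (Subtype.ext (Eq.trans ?_ h3))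
    exact congrArg φ (Subtype.ext (hkf x hxS).symm)

end CfsgLib.Alperin
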