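import Cfsg.Agent.Lib.Alperin.NormalLift

/-!
For `c ∈ C_S(T)` with `c ^ p ∈ T`: the group of lifts to `Q⟨c⟩` of the automorphisms of `Q` in a
normal subsystem over `T`, and the possible displacements of `c` by lifts of the identity.
-/

set_option autoImplicit false
set_option linter.style.haveILetI false
set_option linter.unusedSectionVars false

namespace CfsgLib.Alperin.NormalLift

open Cfsg Cfsg.FusionSystem CfsgLib.Alperin CfsgLib.FusionSub CfsgLib.FusionBasics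

variable {Ω : Type*} [Group Ω] {S T : Subgroup Ω} {F : FusionSystem S} {E : FusionSystem T}
variable {p : ℕ}

/-- The hypotheses on an element outside `T`. -/
structure Setup (F : FusionSystem S) (E : FusionSystem T) (p : ℕ) (c : Ω) : Prop where
  pgroup : IsPGroup p S
  normal : E.IsNormalIn F p
  mem : c ∈ centralizerIn S T
  pow_mem : c ^ p ∈ T
  not_mem : c ∉ T

namespace Setup

variable {c : Ω}

theorem le (h : Setup F E p c) : T ≤ S := h.normal.1.2.2.2.1.1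

theorem tgroup (h : Setup F E p c) : IsPGroup p T := isPGroup_of_le h.pgroup h.le

theorem commute (h : Setup F E p c) {x : Ω} (hx : x ∈ T) : Commute x c := h.mem.2 x hx

theorem pow_mem_centric (h : Setup F E p c) {Q : Subgroup Ω} (hQ : E.IsCentric Q) : c ^ p ∈ Q :=
  hQ.2 Q (isConj_refl E hQ.1) ⟨h.pow_mem, fun _ hx => ((h.commute (hQ.1 hx)).pow_right p).eq⟩

theorem qc_le (h : Setup F E p c) {Q : Subgroup Ω} (hQ : Q ≤ T) :
    Q ⊔ Subgroup.zpowers c ≤ S :=
  sup_le (hQ.trans h.le) (Subgroup.zpowers_le.mpr h.mem.1)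

theorem zpowers_le_centralizer (h : Setup F E p c) :
    Subgroup.zpowers c ≤ centralizerIn S T :=
  Subgroup.zpowers_le.mpr h.mem

theorem exists_eq_mul (h : Setup F E p c) {Q : Subgroup Ω} (hQ : Q ≤ T) {x : Ω}
    (hx : x ∈ Q ⊔ Subgroup.zpowers c) : ∃ q ∈ Q, ∃ j : ℤ, x = q * c ^ j := by
  have hN : Subgroup.zpowers c ≤ Subgroup.normalizer (Q : Set Ω) :=
    (h.zpowers_le_centralizer.trans (inf_le_inf_left S (Subgroup.centralizer_le hQ))).trans
      (fun y hy => (centralizerIn_le_normalizerIn S Q hy).2)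
  rw [← SetLike.mem_coe, Subgroup.coe_mul_of_right_le_normalizer_left Q _ hN] at hx
  obtain ⟨q, hq, _, ⟨j, rfl⟩, rfl⟩ := hx
  exact ⟨q, hq, j, rfl⟩

end Setup

/-- `c` as an element of `Q⟨c⟩`. -/
def cElt (Q : Subgroup Ω) (c : Ω) : ↥(Q ⊔ Subgroup.zpowers c) :=
  ⟨c, Subgroup.mem_sup_right (Subgroup.mem_zpowers c)⟩

/-- `γ` restricts to `a`. -/
def IsLift {Q : Subgroup Ω} {c : Ω} (γ : MulAut ↥(Q ⊔ Subgroup.zpowers c)) (a : MulAut Q) :
    Prop :=
  ∀ x : Q, γ (Subgroup.inclusion le_sup_left x) = Subgroup.inclusion le_sup_left (a x)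

theorem IsLift.unique {Q : Subgroup Ω} {c : Ω} {γ : MulAut ↥(Q ⊔ Subgroup.zpowers c)}
    {a b : MulAut Q} (ha : IsLift γ a) (hb : IsLift γ b) : a = b :=
  MulEquiv.ext fun x => Subgroup.inclusion_injective le_sup_left ((ha x).symm.trans (hb x))

/-- The displacement of `c`. -/
def disp {Q : Subgroup Ω} {c : Ω} (γ : MulAut ↥(Q ⊔ Subgroup.zpowers c)) : Ω :=
  c⁻¹ * (γ (cElt Q c) : Ω)

theorem apply_cElt {Q : Subgroup Ω} {c : Ω} (γ : MulAut ↥(Q ⊔ Subgroup.zpowers c))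
    (h : disp γ ∈ Q) :
    γ (cElt Q c) = cElt Q c * Subgroup.inclusion le_sup_left ⟨disp γ, h⟩ :=
  Subtype.ext (mul_inv_cancel_left c (γ (cElt Q c) : Ω)).symm

/-- The lifts to `Q⟨c⟩` of the automorphisms of `Q` in `E` moving `c` inside `cQ`. -/
def liftGroup (F : FusionSystem S) (E : FusionSystem T) (Q : Subgroup Ω) (c : Ω) :
    Subgroup (MulAut ↥(Q ⊔ Subgroup.zpowers c)) where
  carrier := {γ | γ ∈ F.autGroup (Q ⊔ Subgroup.zpowers c) ∧ disp γ ∈ Q ∧
    ∃ a ∈ E.autGroup Q, IsLift γ a}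
  one_mem' := ⟨Subgroup.one_mem _, by simp [disp, cElt], 1, Subgroup.one_mem _, fun _ => rfl⟩
  mul_mem' := by
    rintro γ δ ⟨hγ, hγd, a, ha, hγa⟩ ⟨hδ, hδd, b, hb, hδb⟩
    refine ⟨Subgroup.mul_mem _ hγ hδ, ?_, a * b, Subgroup.mul_mem _ ha hb, fun x => ?_⟩
    · have e : disp (γ * δ) = disp γ * (a ⟨disp δ, hδd⟩ : Q) := by
        show c⁻¹ * ((γ (δ (cElt Q c)) : _) : Ω) = c⁻¹ * (γ (cElt Q c) : Ω) * _
        rw [apply_cElt δ hδd, map_mul, hγa, mul_assoc]
        rfl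
      rw [e]
      exact Q.mul_mem hγd (a _).2
    · show γ (δ _) = _
      rw [hδb, hγa]
      rfl
  inv_mem' := by
    rintro γ ⟨hγ, hγd, a, ha, hγa⟩
    refine ⟨Subgroup.inv_mem _ hγ, ?_, a⁻¹, Subgroup.inv_mem _ ha, fun x => ?_⟩
    · set y : Q := a⁻¹ ⟨disp γ, hγd⟩⁻¹ with hy
      have e : γ (cElt Q c * Subgroup.inclusion le_sup_left y) = cElt Q c := by
        rw [map_mul, hγa, hy, MulAut.apply_inv_self, apply_cElt γ hγd, map_inv,
          mul_inv_cancel_right]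
      have e2 : γ⁻¹ (cElt Q c) = cElt Q c * Subgroup.inclusion le_sup_left y :=
        γ.injective ((MulAut.apply_inv_self _ γ (cElt Q c)).trans e.symm)
      show c⁻¹ * (γ⁻¹ (cElt Q c) : Ω) ∈ Q
      rw [e2]
      show c⁻¹ * (c * (y : Ω)) ∈ Q
      rw [inv_mul_cancel_left]
      exact y.2
    · apply γ.injective
      rw [MulAut.apply_inv_self, hγa, MulAut.apply_inv_self]

/-- The automorphisms of `Q⟨c⟩`. -/
abbrev LAut (Q : Subgroup Ω) (c : Ω) : Type _ := MulAut ↥(Q ⊔ Subgroup.zpowers c)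

variable {Q : Subgroup Ω} {c : Ω}

/-- Restriction to `Q`. -/
noncomputable def restr (F : FusionSystem S) (E : FusionSystem T) (Q : Subgroup Ω) (c : Ω) :
    liftGroup F E Q c →* E.autGroup Q where
  toFun γ := ⟨γ.2.2.2.choose, γ.2.2.2.choose_spec.1⟩
  map_one' := Subtype.ext (IsLift.unique
    ((1 : liftGroup F E Q c).2.2.2.choose_spec.2) fun _ => rfl)
  map_mul' γ δ := Subtype.ext (IsLift.unique ((γ * δ).2.2.2.choose_spec.2) fun x => by
    show (γ : MulAut ↥(Q ⊔ Subgroup.zpowers c)) ((δ : MulAut ↥(Q ⊔ Subgroup.zpowers c)) _) = _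
    rw [δ.2.2.2.choose_spec.2, γ.2.2.2.choose_spec.2]
    rfl)

theorem restr_isLift (γ : liftGroup F E Q c) :
    IsLift (γ : LAut Q c) (restr F E Q c γ : MulAut Q) :=
  γ.2.2.2.choose_spec.2

theorem restr_eq {γ : liftGroup F E Q c} {a : MulAut Q} (h : IsLift (γ : LAut Q c) a) :
    (restr F E Q c γ : MulAut Q) = a :=
  (restr_isLift γ).unique h

theorem disp_mul (γ δ : liftGroup F E Q c) :
    disp ((γ * δ : liftGroup F E Q c) : LAut Q c) =
      disp (γ : LAut Q c) * ((restr F E Q c γ : MulAut Q) ⟨disp (δ : LAut Q c), δ.2.2.1⟩ : Q) := by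
  show c⁻¹ * (((γ : LAut Q c) ((δ : LAut Q c) (cElt Q c)) : _) : Ω) = _
  rw [apply_cElt _ δ.2.2.1, map_mul, restr_isLift γ]
  exact (mul_assoc c⁻¹ _ _).symm

theorem disp_mul_of_restr_eq_one {γ : liftGroup F E Q c} (hγ : restr F E Q c γ = 1)
    (δ : liftGroup F E Q c) :
    disp ((γ * δ : liftGroup F E Q c) : LAut Q c) = disp (γ : LAut Q c) * disp (δ : LAut Q c) := by
  rw [disp_mul, hγ]
  rfl

theorem disp_one : disp (1 : MulAut ↥(Q ⊔ Subgroup.zpowers c)) = 1 := by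
  simp [disp, cElt]

theorem disp_central (h : Setup F E p c) (hQ : Q ≤ T) (γ : liftGroup F E Q c) {q : Ω}
    (hq : q ∈ Q) : Commute q (disp (γ : LAut Q c)) := by
  obtain ⟨x, hx⟩ := ((restr F E Q c γ : MulAut Q)).surjective ⟨q, hq⟩
  have hψq : (γ : LAut Q c) (Subgroup.inclusion le_sup_left x) =
      Subgroup.inclusion le_sup_left (⟨q, hq⟩ : Q) := (restr_isLift γ x).trans (by rw [hx])
  have h1 : q * ((γ : LAut Q c) (cElt Q c) : Ω) = ((γ : LAut Q c) (cElt Q c) : Ω) * q := by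
    have := congrArg (fun z => ((γ : LAut Q c) z : Ω))
      (show Subgroup.inclusion le_sup_left x * cElt Q c = cElt Q c * Subgroup.inclusion le_sup_left x
        from Subtype.ext (h.commute (hQ x.2)).eq)
    simpa [map_mul, hψq] using this
  exact ((h.commute (hQ hq)).inv_right).mul_right h1

/-- Two automorphisms of `Q⟨c⟩` agreeing on `Q` and at `c` are equal. -/
theorem aut_ext (h : Setup F E p c) (hQ : Q ≤ T) {γ δ : MulAut ↥(Q ⊔ Subgroup.zpowers c)}
    (h₁ : ∀ x : Q, γ (Subgroup.inclusion le_sup_left x) = δ (Subgroup.inclusion le_sup_left x))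
    (h₂ : γ (cElt Q c) = δ (cElt Q c)) : γ = δ := by
  refine MulEquiv.ext fun z => ?_
  obtain ⟨q, hq, j, hz⟩ := h.exists_eq_mul hQ z.2
  have e : z = Subgroup.inclusion le_sup_left ⟨q, hq⟩ * cElt Q c ^ j :=
    Subtype.ext (by simpa [cElt] using hz)
  rw [e, map_mul, map_mul, map_zpow, map_zpow, h₁, h₂]

/-- The displacements of `c` by automorphisms fixing `Q`. -/
def dispKer (F : FusionSystem S) (Q : Subgroup Ω) (c : Ω) : Subgroup Ω where
  carrier := {k | k ∈ Q ∧ ∃ μ ∈ F.autGroup (Q ⊔ Subgroup.zpowers c),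
    (∀ x : Q, μ (Subgroup.inclusion le_sup_left x) = Subgroup.inclusion le_sup_left x) ∧
      ((μ (cElt Q c) : _) : Ω) = c * k}
  one_mem' := ⟨Q.one_mem, 1, Subgroup.one_mem _, fun _ => rfl, (mul_one c).symm⟩
  mul_mem' := by
    rintro k l ⟨hk, μ, hμ, hμQ, hμc⟩ ⟨hl, ν, hν, hνQ, hνc⟩
    refine ⟨Q.mul_mem hk hl, μ * ν, Subgroup.mul_mem _ hμ hν, fun x => ?_, ?_⟩
    · show μ (ν _) = _
      rw [hνQ, hμQ]
    · show (μ (ν (cElt Q c)) : Ω) = _
      rw [show ν (cElt Q c) = cElt Q c * Subgroup.inclusion le_sup_left ⟨l, hl⟩ from Subtype.ext hνc,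
        map_mul, hμQ]
      show (μ (cElt Q c) : Ω) * l = _
      rw [hμc, mul_assoc]
  inv_mem' := by
    rintro k ⟨hk, μ, hμ, hμQ, hμc⟩
    refine ⟨Q.inv_mem hk, μ⁻¹, Subgroup.inv_mem _ hμ, fun x => ?_, ?_⟩
    · apply μ.injective
      rw [MulAut.apply_inv_self, hμQ]
    · have e : μ (cElt Q c * Subgroup.inclusion le_sup_left ⟨k, hk⟩⁻¹) = cElt Q c := by
        rw [map_mul, hμQ, map_inv]
        refine Subtype.ext ?_
        show (μ (cElt Q c) : Ω) * k⁻¹ = c
        rw [hμc, mul_inv_cancel_right]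
      have e2 : μ⁻¹ (cElt Q c) = cElt Q c * Subgroup.inclusion le_sup_left ⟨k, hk⟩⁻¹ :=
        μ.injective ((MulAut.apply_inv_self _ μ (cElt Q c)).trans e.symm)
      rw [e2]
      rfl

theorem dispKer_le : dispKer F Q c ≤ Q := fun _ hk => hk.1

theorem disp_mem_dispKer {γ : liftGroup F E Q c} (hγ : restr F E Q c γ = 1) :
    disp (γ : LAut Q c) ∈ dispKer F Q c := by
  refine ⟨γ.2.2.1, (γ : LAut Q c), γ.2.1, fun x => ?_, (mul_inv_cancel_left c _).symm⟩
  rw [restr_isLift γ, hγ]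
  rfl

theorem exists_lift_of_dispKer (E : FusionSystem T) {k : Ω} (hk : k ∈ dispKer F Q c) :
    ∃ γ : liftGroup F E Q c, restr F E Q c γ = 1 ∧ disp (γ : LAut Q c) = k := by
  obtain ⟨hkQ, μ, hμ, hμQ, hμc⟩ := hk
  have hd : disp μ = k := by rw [disp, hμc, inv_mul_cancel_left]
  have hlift : IsLift μ (1 : MulAut Q) := hμQ
  refine ⟨⟨μ, hμ, hd.symm ▸ hkQ, 1, Subgroup.one_mem _, hlift⟩, Subtype.ext (restr_eq hlift), hd⟩

theorem dispKer_commute (h : Setup F E p c) (hQ : Q ≤ T) {k q : Ω} (hk : k ∈ dispKer F Q c)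
    (hq : q ∈ Q) : Commute q k := by
  obtain ⟨γ, -, rfl⟩ := exists_lift_of_dispKer E hk
  exact disp_central h hQ γ hq

theorem dispKer_pow (h : Setup F E p c) (hQ : E.IsCentric Q) {k : Ω}
    (hk : k ∈ dispKer F Q c) : k ^ p = 1 := by
  obtain ⟨hkQ, μ, -, hμQ, hμc⟩ := hk
  have h1 := hμQ ⟨c ^ p, h.pow_mem_centric hQ⟩
  rw [show Subgroup.inclusion le_sup_left (⟨c ^ p, h.pow_mem_centric hQ⟩ : Q) = cElt Q c ^ p from
    Subtype.ext rfl, map_pow] at h1
  have h2 : (c * k) ^ p = c ^ p := by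
    rw [← hμc]
    exact congrArg Subtype.val h1
  rwa [(h.commute (hQ.1 hkQ)).symm.mul_pow, mul_eq_left] at h2

theorem restr_apply_mem_dispKer (h : Setup F E p c) (hQ : Q ≤ T) (γ : liftGroup F E Q c) {k : Ω}
    (hk : k ∈ dispKer F Q c) :
    (((restr F E Q c γ : MulAut Q) ⟨k, hk.1⟩ : Q) : Ω) ∈ dispKer F Q c := by
  obtain ⟨μ, hμ1, hμk⟩ := exists_lift_of_dispKer E hk
  have h1 : restr F E Q c (γ * μ * γ⁻¹) = 1 := by
    rw [map_mul, map_mul, hμ1, mul_one, map_inv, mul_inv_cancel]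
  have h2 := congrArg (fun z : liftGroup F E Q c => disp (z : LAut Q c))
    (show γ * μ * γ⁻¹ * γ = γ * μ by group)
  rw [disp_mul_of_restr_eq_one h1, disp_mul γ μ] at h2
  have e : (⟨disp (μ : LAut Q c), μ.2.2.1⟩ : Q) = ⟨k, hk.1⟩ := Subtype.ext hμk
  rw [e] at h2
  set z := disp (γ : LAut Q c)
  set a : Ω := (((restr F E Q c γ : MulAut Q) ⟨k, hk.1⟩ : Q) : Ω)
  have hm := disp_mem_dispKer h1
  set d := disp ((γ * μ * γ⁻¹ : liftGroup F E Q c) : LAut Q c)
  have hzd : Commute z d := dispKer_commute h hQ hm γ.2.2.1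
  have h3 : d = a := by
    apply mul_left_cancel (a := z)
    rw [hzd.eq, h2]
  exact h3 ▸ hm

/-- Conjugation by a normalizing element of `T` as a lift. -/
theorem exists_conjLift (h : Setup F E p c) (hQ : Q ≤ T) {t : Ω} (ht : t ∈ T)
    (htN : t ∈ Subgroup.normalizer (Q : Set Ω)) :
    ∃ γ : liftGroup F E Q c, (restr F E Q c γ : MulAut Q) = conjAut Q t htN ∧
      disp (γ : LAut Q c) = 1 ∧
      ∀ z, ((γ : LAut Q c) z : Ω) = t * (z : Ω) * t⁻¹ := by
  have htc : t ∈ Subgroup.normalizer ((Subgroup.zpowers c : Subgroup Ω) : Set Ω) :=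
    (centralizerIn_le_normalizerIn (⊤ : Subgroup Ω) _ ⟨Subgroup.mem_top t, by
      rintro _ ⟨j, rfl⟩
      exact ((h.commute ht).zpow_right j).symm.eq⟩).2
  have htQc : t ∈ Subgroup.normalizer ((Q ⊔ Subgroup.zpowers c : Subgroup Ω) : Set Ω) := by
    rw [Subgroup.mem_normalizer_iff_map_conj_eq, Subgroup.map_sup,
      Subgroup.mem_normalizer_iff_map_conj_eq.mp htN, Subgroup.mem_normalizer_iff_map_conj_eq.mp htc]
  set γ := conjAut (Q ⊔ Subgroup.zpowers c) t htQc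
  have hd : disp γ = 1 := by
    show c⁻¹ * (t * c * t⁻¹) = 1
    rw [(h.commute ht).eq, mul_inv_cancel_right, inv_mul_cancel]
  have hl : IsLift γ (conjAut Q t htN) := fun x => Subtype.ext rfl
  exact ⟨⟨γ, autInducedBy_le_autGroup F (h.qc_le hQ) (conjAut_mem (h.le ht) htQc),
    hd.symm ▸ Q.one_mem, _, autInducedBy_le_autGroup E hQ (conjAut_mem ht htN), hl⟩,
    restr_eq hl, hd, fun _ => rfl⟩

/-- The lifts of the automorphisms induced by `T` only displace `c` inside the kernel. -/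
theorem disp_mem_of_induced (h : Setup F E p c) (hQ : Q ≤ T) {γ : liftGroup F E Q c}
    (hγ : (restr F E Q c γ : MulAut Q) ∈ autInducedBy T Q) :
    disp (γ : LAut Q c) ∈ dispKer F Q c := by
  obtain ⟨t, ht, htx⟩ := mem_autInducedBy_iff.mp hγ
  have htN := normalizer_of_induced htx
  obtain ⟨τ, hτ, hτd, -⟩ := exists_conjLift h hQ ht htN
  have e : (restr F E Q c γ : MulAut Q) = conjAut Q t htN :=
    MulEquiv.ext fun x => Subtype.ext (htx x)
  have h1 : restr F E Q c (γ * τ⁻¹) = 1 := by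
    rw [map_mul, map_inv, mul_inv_eq_one]
    exact Subtype.ext (e.trans hτ.symm)
  have h2 := congrArg (fun z : liftGroup F E Q c => disp (z : LAut Q c))
    (show γ * τ⁻¹ * τ = γ by group)
  rw [disp_mul_of_restr_eq_one h1, hτd, mul_one] at h2
  exact h2 ▸ disp_mem_dispKer h1

variable [Finite S] [Finite T] [Fact p.Prime]

theorem exists_lift (h : Setup F E p c) (hQ : E.IsCentric Q) {a : MulAut Q}
    (ha : a ∈ E.autGroup Q) :
    ∃ γ : liftGroup F E Q c, (restr F E Q c γ : MulAut Q) = a := by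
  obtain ⟨ψ, hψ, hx, hc⟩ :=
    goodExt_of_mem h.pgroup h.normal ((mem_autGroup_iff E hQ.1).mp ha) hQ
  rw [range_subtype_comp_aut] at hc
  have hle : Q ⊔ Subgroup.zpowers c ≤ Q ⊔ centralizerIn S T :=
    sup_le_sup_left h.zpowers_le_centralizer Q
  set χ := ψ.comp (Subgroup.inclusion hle)
  have hcd : c⁻¹ * χ (cElt Q c) ∈ Q := hc ⟨c, h.mem⟩
  have hm : ∀ z, χ z ∈ Q ⊔ Subgroup.zpowers c := by
    refine apply_mem_of_sup χ (fun x => Subgroup.mem_sup_left ?_) ?_
    · show ψ (Subgroup.inclusion le_sup_left x) ∈ Q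
      rw [hx]
      exact (a x).2
    · rintro ⟨_, j, rfl⟩
      have e : Subgroup.inclusion le_sup_right (⟨c ^ j, ⟨j, rfl⟩⟩ : Subgroup.zpowers c) =
          cElt Q c ^ j := Subtype.ext rfl
      rw [e, map_zpow]
      refine zpow_mem ?_ j
      have := mul_mem (Subgroup.mem_sup_right (S := Q) (Subgroup.mem_zpowers c))
        (Subgroup.mem_sup_left hcd)
      rwa [mul_inv_cancel_left] at this
  haveI := finite_of_le (h.qc_le hQ.1)
  obtain ⟨γ, hγ, hγx⟩ := exists_aut_of_hom' F (restrict_mem hψ hle) hm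
  have hd : disp γ = c⁻¹ * χ (cElt Q c) := by rw [disp, hγx]
  have hl : IsLift γ a := fun x => Subtype.ext ((hγx _).trans (hx x))
  exact ⟨⟨γ, hγ, hd.symm ▸ hcd, a, ha, hl⟩, restr_eq hl⟩

theorem restr_surjective (h : Setup F E p c) (hQ : E.IsCentric Q) :
    Function.Surjective (restr F E Q c) := fun a => by
  obtain ⟨γ, hγ⟩ := exists_lift h hQ a.2
  exact ⟨γ, Subtype.ext hγ⟩

theorem finite_liftGroup (h : Setup F E p c) (hQ : Q ≤ T) : Finite (liftGroup F E Q c) := by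
  haveI := finite_of_le (h.qc_le hQ)
  haveI := finite_mulAut (P := Q ⊔ Subgroup.zpowers c)
  infer_instance

/-- A lift of the identity has order dividing `p`. -/
theorem pow_eq_one_of_restr_eq_one (h : Setup F E p c) (hQ : E.IsCentric Q)
    {γ : liftGroup F E Q c} (hγ : restr F E Q c γ = 1) : γ ^ p = 1 := by
  have hd := disp_mem_dispKer hγ
  have hit : ∀ j : ℕ, disp ((γ ^ j : liftGroup F E Q c) : LAut Q c) = disp (γ : LAut Q c) ^ j := by
    intro j
    induction j with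
    | zero => rw [pow_zero, pow_zero, OneMemClass.coe_one, disp_one]
    | succ j ih =>
      rw [pow_succ', pow_succ', disp_mul]
      simp only [hγ, OneMemClass.coe_one, MulAut.one_apply, ih]
  refine Subtype.ext (aut_ext h hQ.1 (fun x => ?_) (Subtype.ext ?_))
  · rw [restr_isLift, map_pow, hγ, one_pow]
    rfl
  · have h1 := hit p
    rw [dispKer_pow h hQ hd] at h1
    exact inv_mul_eq_one.mp h1 |>.symm

/-- The lifts of `Aut_T(Q)` form a Sylow subgroup of the lift group. -/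
theorem exists_sylow_lift (h : Setup F E p c) (hQ : E.IsFullyNormalized Q) (hQc : E.IsCentric Q) :
    ∃ R : Sylow p (liftGroup F E Q c), ∀ γ : liftGroup F E Q c,
      γ ∈ R ↔ (restr F E Q c γ : MulAut Q) ∈ autInducedBy T Q := by
  haveI := finite_liftGroup h hQ.1
  obtain ⟨-, R₀, hR₀⟩ := (centralized_automized_of_fullyNormalized h.tgroup h.normal.1.1 hQ).2
  have hker : IsPGroup p (restr F E Q c).ker := fun γ => ⟨1, Subtype.ext (by
    rw [SubgroupClass.coe_pow, pow_one, pow_eq_one_of_restr_eq_one h hQc γ.2]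
    rfl)⟩
  have hp : IsPGroup p ((R₀ : Subgroup (E.autGroup Q)).comap (restr F E Q c)) :=
    R₀.2.comap_of_ker_isPGroup _ hker
  refine ⟨hp.toSylow ?_, fun γ => ?_⟩
  · rw [Subgroup.index_comap_of_surjective _ (restr_surjective h hQc)]
    haveI := finite_autGroup E hQ.1
    exact R₀.not_dvd_index
  · show restr F E Q c γ ∈ (R₀ : Subgroup (E.autGroup Q)) ↔ _
    rw [hR₀]
    exact Subgroup.mem_subgroupOf

theorem fixY_of_lift {γ : liftGroup F E Q c} (h : Setup F E p c) (hQ : Q ≤ T)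
    (hd : disp (γ : LAut Q c) ∈ dispKer F Q c) :
    FixY F (Subgroup.zpowers c) Q
      (Q.subtype.comp (restr F E Q c γ : MulAut Q).toMonoidHom) := by
  obtain ⟨μ, hμ, hμd⟩ := exists_lift_of_dispKer E hd
  set δ := μ⁻¹ * γ
  have h1 : restr F E Q c δ = restr F E Q c γ := by rw [map_mul, map_inv, hμ, inv_one, one_mul]
  have h2 := congrArg (fun z : liftGroup F E Q c => disp (z : LAut Q c))
    (show μ * δ = γ from mul_inv_cancel_left μ γ)
  rw [disp_mul_of_restr_eq_one hμ, hμd, mul_eq_left] at h2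
  refine ⟨_, (mem_autGroup_iff F (h.qc_le hQ)).mp δ.2.1, fun x => ?_, ?_⟩
  · show ((δ : LAut Q c) _ : Ω) = _
    rw [restr_isLift, h1]
    rfl
  · rintro ⟨_, j, rfl⟩
    have e : Subgroup.inclusion le_sup_right (⟨c ^ j, ⟨j, rfl⟩⟩ : Subgroup.zpowers c) =
        cElt Q c ^ j := Subtype.ext rfl
    rw [e, map_zpow]
    show (((δ : LAut Q c) (cElt Q c) : Ω)) ^ j = c ^ j
    rw [← inv_mul_eq_one.mp h2]

theorem exists_lift_of_fixY (h : Setup F E p c) (hQ : Q ≤ T) {a : MulAut Q}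
    (ha : a ∈ E.autGroup Q)
    (hfix : FixY F (Subgroup.zpowers c) Q (Q.subtype.comp a.toMonoidHom)) :
    ∃ γ : liftGroup F E Q c, (restr F E Q c γ : MulAut Q) = a ∧ disp (γ : LAut Q c) = 1 := by
  obtain ⟨ψ, hψ, hx, hy⟩ := hfix
  have hm : ∀ z, ψ z ∈ Q ⊔ Subgroup.zpowers c := apply_mem_of_sup ψ
    (fun x => Subgroup.mem_sup_left (by rw [hx]; exact (a x).2))
    (fun y => Subgroup.mem_sup_right (by rw [hy]; exact y.2))
  haveI := finite_of_le (h.qc_le hQ)
  obtain ⟨γ, hγ, hγx⟩ := exists_aut_of_hom' F hψ hm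
  have hd : disp γ = 1 := by
    rw [disp, hγx, inv_mul_eq_one]
    exact (hy ⟨c, Subgroup.mem_zpowers c⟩).symm
  have hl : IsLift γ a := fun x => Subtype.ext ((hγx _).trans (hx x))
  exact ⟨⟨γ, hγ, hd.symm ▸ Q.one_mem, a, ha, hl⟩, restr_eq hl, hd⟩

end CfsgLib.Alperin.NormalLift
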